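import Cfsg.Agent.E8A.TwoB.Iface
import Cfsg.Agent.E8A.TwoH.R12

/-!
# The box TBa: the group `A₄` in the centralizer of a 3-cycle (helper44)

`x = (567)`, `y = (012)`, `k = (01)(23)`, `k' = y k y⁻¹`, `k'' = y⁻¹ k y`.  See `notes/E8A/twoB.md`.
-/

set_option autoImplicit false

namespace Cfsg.Agent.E8A.TwoB

open Cfsg Cfsg.Lie Module
open Cfsg.Agent.H952.F4 (ev)
open Cfsg.Agent.E8A.TwoH (hx yv)

universe u

/-- **A4X** -/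
def A4X : Prop := ∀ (F : Type u) [Field F] [Finite F] [CharP F 2] (x y k : G8 (Kb F)) (w X : L8 (Kb F)),
  x ^ 3 = 1 → y ^ 3 = 1 → Commute x y → Commute k x → k * k = 1 → k * (y * k * y⁻¹) = y⁻¹ * k * y →
  ev (LK (Kb F) x) 1 = 80 → ev (LK (Kb F) y) 1 = 80 → ev (LK (Kb F) (x * y)) 1 = 92 → ev (LK (Kb F) (x * y⁻¹)) 1 = 92 →
  w = hx (x * y) + hx (x * y⁻¹) → X = yv k + yv (y * k * y⁻¹) + yv (y⁻¹ * k * y) →
  w ≠ 0 ∧ X = w + act k w + act (y * k * y⁻¹) w + act (y⁻¹ * k * y) w ∧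
  (∀ v, act x v = v → act k v = v → act (y * k * y⁻¹) v = v → br X v = 0) ∧
  ((Par.Extr X ∧ (∀ g : G8 (Kb F), Commute g x → g * y * g⁻¹ = y⁻¹ → br X (act g X) = 0) ∧
      ∀ s : G8 (Kb F), s * x * s⁻¹ = y → s * y * s⁻¹ = x⁻¹ → br X (act s X) = 0) ∨
    ∀ g : G8 (Kb F), g * x * g⁻¹ = x⁻¹ → g * y * g⁻¹ = y⁻¹ → Commute g k → act k w = w)

end Cfsg.Agent.E8A.TwoB
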