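import Cfsg.Agent.E8A.TwoB.Nf
import Cfsg.Agent.E8A.TwoB.Iface2
import Cfsg.Agent.E8A.Two.Geo

/-!
# The group `A₄` in the centralizer of an element of class 80 (helper44)
-/

set_option autoImplicit false
set_option maxRecDepth 100000

namespace Cfsg.Agent.E8A.TwoB

open Cfsg Cfsg.Lie Module
open Matrix hiding J J_transpose
open Cfsg.Agent.H952.F4 (ev)
open Cfsg.Agent.E8A.Par (Extr)
open Cfsg.Agent.E8A.Two Cfsg.Agent.E8A.TwoH

universe u


variable {K : Type u} [Field K]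

/-! ### algebra -/

theorem om3 {ω : K} (hω : ω ^ 2 + ω + 1 = 0) : ω * ω ^ 2 = 1 := by linear_combination (ω - 1) * hω

theorem om3' {ω : K} (hω : ω ^ 2 + ω + 1 = 0) : ω ^ 2 * ω = 1 := by linear_combination (ω - 1) * hω

theorem om4 {ω : K} (hω : ω ^ 2 + ω + 1 = 0) : (ω ^ 2) ^ 2 = ω := by linear_combination (ω ^ 2 - ω) * hω

theorem om5 {ω : K} (hω : ω ^ 2 + ω + 1 = 0) : (ω ^ 2) ^ 2 + ω ^ 2 + 1 = 0 := by rw [om4 hω, add_comm ω, hω]

theorem one_of_sq (h2 : (2 : K) = 0) {c : K} (h : c * c = 1) : c = 1 :=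
  sub_eq_zero.1 (pow_eq_zero_iff two_ne_zero |>.1 (by linear_combination h + (1 - c) * h2))

section alg

variable {R : Type*} [Ring R] [Algebra K R]

/-- blocks -/
structure Bl (e p q X Z : R) : Prop where
  pp : p * p = p
  qq : q * q = q
  pq : p * q = 0
  qp : q * p = 0
  sum : e + p + q = 1
  eX : e * X = X * p
  pX : p * X = X * q
  qX : q * X = X * e
  eZ : e * Z = Z * q
  pZ : p * Z = Z * e
  qZ : q * Z = Z * p
  XX : X * X = 0
  ZZ : Z * Z = 0
  XZ : X * Z = Z * X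

theorem orth {e p q : R} (pp : p * p = p) (qq : q * q = q) (pq : p * q = 0) (qp : q * p = 0) (sum : e + p + q = 1) :
    e * e = e ∧ e * p = 0 ∧ e * q = 0 ∧ p * e = 0 ∧ q * e = 0 := by
  obtain rfl : e = 1 - p - q := by rw [← sum]; abel
  simp only [sub_mul, mul_sub, one_mul, mul_one, pp, qq, pq, qp, sub_self, sub_zero, and_true]

namespace Bl

variable {e p q X Z : R} (h : Bl e p q X Z)
include h

theorem symm : Bl e q p Z X :=
  ⟨h.qq, h.pp, h.qp, h.pq, by rw [← h.sum]; abel, h.eZ, h.qZ, h.pZ, h.eX, h.qX, h.pX, h.ZZ, h.XX, h.XZ.symm⟩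

theorem ee : e * e = e := (orth h.pp h.qq h.pq h.qp h.sum).1

theorem ep : e * p = 0 := (orth h.pp h.qq h.pq h.qp h.sum).2.1

theorem pe : p * e = 0 := (orth h.pp h.qq h.pq h.qp h.sum).2.2.2.1

theorem eN : e * (X * Z) = X * Z * e := by rw [← mul_assoc, h.eX, mul_assoc, h.pZ, mul_assoc]

theorem NN : X * Z * (X * Z) = 0 := by rw [mul_assoc, ← mul_assoc Z, ← h.XZ, mul_assoc X, h.ZZ, mul_zero, mul_zero]

theorem Np : X * Z * p = Z * e * X := by rw [h.XZ, mul_assoc, ← h.eX, mul_assoc]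

theorem XeX : X * e * X = 0 := by rw [mul_assoc, h.eX, ← mul_assoc, h.XX, zero_mul]

theorem dec (h0 : X * Z * e = 0) : X * Z = Z * e * X + X * e * Z := by
  rw [← h.Np, ← h.symm.Np, ← h.XZ, ← mul_add, ← zero_add (X * Z * _), ← h0, ← mul_add, ← add_assoc, h.sum, mul_one]

theorem conj (h0 : X * Z * e = 0) {α β : K} (hαβ : α * β = 1) :
    (1 + α • X + β • Z + X * Z) * e * (1 + α • X + β • Z + X * Z) =
      e + α • (X * e + e * X) + β • (Z * e + e * Z) + X * Z := by
  have h1 : (1 + α • X + β • Z + X * Z) * e = (1 + α • X + β • Z) * e := by rw [add_mul _ (X * Z), h0, add_zero]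
  have h2 : e * (1 + α • X + β • Z + X * Z) = e * (1 + α • X + β • Z) := by rw [mul_add _ _ (X * Z), h.eN, h0, add_zero]
  rw [h1, mul_assoc, h2, ← mul_assoc, h.dec h0]
  simp only [add_mul, mul_add, one_mul, mul_one, smul_mul_assoc, mul_smul_comm, h.XeX, h.symm.XeX, smul_zero, smul_add,
    smul_smul, hαβ, mul_comm β α, one_smul]
  abel

end Bl

theorem klein {ω : K} (h2 : (2 : K) = 0) (hω : ω ^ 2 + ω + 1 = 0) {a b c : R} (aa : a * a = 1) (bb : b * b = 1)
    (ab : a * b = c) (ba : b * a = c) {X Z : R} (hX : X = a + ω • b + ω ^ 2 • c) (hZ : Z = a + ω ^ 2 • b + ω • c) :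
    X * X = 0 ∧ Z * Z = 0 ∧ X * Z = Z * X ∧ X * Z = 1 + a + b + c ∧ a = 1 + (1 : K) • X + (1 : K) • Z + X * Z ∧
      b = 1 + ω ^ 2 • X + ω • Z + X * Z ∧ c = 1 + ω • X + ω ^ 2 • Z + X * Z := by
  have ac : a * c = b := by rw [← ab, ← mul_assoc, aa, one_mul]
  have ca : c * a = b := by rw [← ba, mul_assoc, aa, mul_one]
  have bc : b * c = a := by rw [← ba, ← mul_assoc, bb, one_mul]
  have cb : c * b = a := by rw [← ab, mul_assoc, bb, mul_one]
  have cc : c * c = 1 := by rw [← ab, mul_assoc, ← mul_assoc b, ba, cb, aa]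
  have h1 : X * Z = 1 + a + b + c := by
    simp only [hX, hZ, add_mul, mul_add, smul_mul_assoc, mul_smul_comm, aa, bb, cc, ab, ba, ac, ca, bc, cb]
    match_scalars <;> grind
  refine ⟨?_, ?_, h1.trans ?_, h1, ?_, ?_, ?_⟩
  · simp only [hX, add_mul, mul_add, smul_mul_assoc, mul_smul_comm, aa, bb, cc, ab, ba, ac, ca, bc, cb]
    match_scalars <;> grind
  · simp only [hZ, add_mul, mul_add, smul_mul_assoc, mul_smul_comm, aa, bb, cc, ab, ba, ac, ca, bc, cb]
    match_scalars <;> grind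
  · simp only [hX, hZ, add_mul, mul_add, smul_mul_assoc, mul_smul_comm, aa, bb, cc, ab, ba, ac, ca, bc, cb]
    match_scalars <;> grind
  · rw [h1, hX, hZ]
    match_scalars <;> grind
  · rw [h1, hX, hZ]
    match_scalars <;> grind
  · rw [h1, hX, hZ]
    match_scalars <;> grind

theorem blocks {ω : K} (h2 : (2 : K) = 0) (hω : ω ^ 2 + ω + 1 = 0) {e p q : R} (sum : e + p + q = 1) (a : R) {Y Y' : R}
    (hY : Y = e + ω • p + ω ^ 2 • q) (hY' : Y' = e + ω ^ 2 • p + ω • q) :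
    a + ω • (Y * a * Y') + ω ^ 2 • (Y' * a * Y) = e * a * p + p * a * q + q * a * e ∧
    a + ω ^ 2 • (Y * a * Y') + ω • (Y' * a * Y) = e * a * q + q * a * p + p * a * e := by
  have h1 : a = (e + p + q) * a * (e + p + q) := by rw [sum, one_mul, mul_one]
  constructor
  · nth_rw 1 [h1]
    simp only [hY, hY', add_mul, mul_add, smul_mul_assoc, mul_smul_comm]
    match_scalars <;> grind
  · nth_rw 1 [h1]
    simp only [hY, hY', add_mul, mul_add, smul_mul_assoc, mul_smul_comm]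
    match_scalars <;> grind

theorem inter {e p q : R} (pp : p * p = p) (qq : q * q = q) (pq : p * q = 0) (qp : q * p = 0) (sum : e + p + q = 1)
    {a X : R} (hX : X = e * a * p + p * a * q + q * a * e) : e * X = X * p ∧ p * X = X * q ∧ q * X = X * e := by
  obtain ⟨ee, ep, eq, pe, qe⟩ := orth pp qq pq qp sum
  have h1 : e * X = e * a * p ∧ p * X = p * a * q ∧ q * X = q * a * e := by
    simp only [hX, mul_add, ← mul_assoc, ee, ep, eq, pe, qe, pp, qq, pq, qp, zero_mul, add_zero, zero_add, and_self]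
  have h2 : X * p = e * a * p ∧ X * q = p * a * q ∧ X * e = q * a * e := by
    simp only [hX, add_mul, mul_assoc, ee, ep, eq, pe, qe, pp, qq, pq, qp, mul_zero, add_zero, zero_add, and_self]
  exact ⟨h1.1.trans h2.1.symm, h1.2.1.trans h2.2.1.symm, h1.2.2.trans h2.2.2.symm⟩

theorem yy {ω : K} (hω : ω ^ 2 + ω + 1 = 0) {e p q : R} (pp : p * p = p) (qq : q * q = q) (pq : p * q = 0)
    (qp : q * p = 0) (sum : e + p + q = 1) {Y Y' : R} (hY : Y = e + ω • p + ω ^ 2 • q) (hY' : Y' = e + ω ^ 2 • p + ω • q) :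
    Y * Y' = 1 ∧ Y * e = e ∧ Y * p = ω • p ∧ Y * q = ω ^ 2 • q ∧ e * Y' = e ∧ p * Y' = ω ^ 2 • p ∧ q * Y' = ω • q := by
  obtain ⟨ee, ep, eq, pe, qe⟩ := orth pp qq pq qp sum
  simp only [← sum, hY, hY', add_mul, mul_add, smul_mul_assoc, mul_smul_comm, ee, ep, eq, pe, qe, pp, qq, pq, qp,
    smul_zero, add_zero, zero_add, and_true]
  match_scalars <;> grind

theorem Bl.eig {ω : K} (hω : ω ^ 2 + ω + 1 = 0) {e p q X Z : R} (h : Bl e p q X Z) :
    (e + ω • p + ω ^ 2 • q) * (X * e + e * X) * (e + ω ^ 2 • p + ω • q) = ω ^ 2 • (X * e + e * X) := by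
  obtain ⟨-, y1, -, y2, y3, y4, -⟩ := yy hω h.pp h.qq h.pq h.qp h.sum rfl rfl
  generalize e + ω • p + ω ^ 2 • q = Y at *
  generalize e + ω ^ 2 • p + ω • q = Y' at *
  rw [mul_add, add_mul, ← mul_assoc _ e, y1, h.eX, mul_assoc X p, y4, mul_assoc, mul_assoc, y3, ← h.qX, ← mul_assoc, y2,
    smul_mul_assoc, mul_smul_comm, ← smul_add]

theorem sum4 {ω : K} (h2 : (2 : K) = 0) (hω : ω ^ 2 + ω + 1 = 0) (e U V N : R) :
    N = e + (e + (1 : K) • U + (1 : K) • V + N) + (e + ω ^ 2 • U + ω • V + N) + (e + ω • U + ω ^ 2 • V + N) := by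
  match_scalars <;> grind

end alg

/-! ### abstract lemmas in the Lie algebra -/

section lie

variable {x y s g k : G8 K} {hp hm h h' u v w u1 u2 : L8 K}

theorem lie_c1 (Hp : Hx (x * y) hp) (Hm : Hx (x * y⁻¹) hm) (hh : h = hp ∧ h' = hm ∨ h = hm ∧ h' = hp)
    (s1 : s * x * s⁻¹ = y) (s2 : s * y * s⁻¹ = x⁻¹) (s3 : act s hp = hm) (s4 : act s hm = hp) {ε δ : K}
    (xu : act x u = u) (yu : act y u = ε • u) (xv : act x v = v) (yv : act y v = δ • v) (he : ε = δ ∨ ε * δ = 1)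
    (b1 : br h u = u) (b2 : br h' u = 0) (b3 : br h v = v) (b4 : br h' v = 0) : br u (act s v) = 0 := by
  have k1 : act s h = h' ∧ act s h' = h := by
    rcases hh with ⟨rfl, rfl⟩ | ⟨rfl, rfl⟩
    exacts [⟨s3, s4⟩, ⟨s4, s3⟩]
  have k2 : act y (act s v) = act s v := by rw [← s1, ← act_mul, inv_mul_cancel_right, act_mul, xv]
  have k3 : δ • act x (act s v) = act s v := by
    rw [← act_smul, ← act_smul, ← yv, ← act_mul s y, ← inv_mul_cancel_right (s * y) s, s2, act_mul x⁻¹, act_inv']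
  have k4 : br h (br u (act s v)) = br u (act s v) := by
    rw [br_der, b1, ← k1.2, ← act_br, b4, act_zero, br_zero_right, add_zero]
  have k5 : br h' (br u (act s v)) = br u (act s v) := by
    rw [br_der, b2, ← k1.1, ← act_br, b3, br_zero_left, zero_add]
  have k6 : br hp (br u (act s v)) = br u (act s v) ∧ br hm (br u (act s v)) = br u (act s v) := by
    rcases hh with ⟨rfl, rfl⟩ | ⟨rfl, rfl⟩
    exacts [⟨k4, k5⟩, ⟨k5, k4⟩]
  rcases he with rfl | he
  · rw [← k6.1]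
    refine Hp.cen _ ?_
    rw [act_mul, act_br y, yu, k2, act_br, act_smul, xu, br_smul_left, ← br_smul_right, k3]
  · rw [← k6.2]
    refine Hm.cen _ ?_
    have k7 : act y⁻¹ u = δ • u := act_injective y (by rw [act_inv', act_smul, yu, smul_smul, mul_comm, he, one_smul])
    rw [act_mul, act_br y⁻¹, k7, act_inv_fix k2, act_br, act_smul, xu, br_smul_left, ← br_smul_right, k3]

theorem lie_n0 [CharP K 2] {ω : K} (hω : ω ^ 2 + ω + 1 = 0) (g1 : act g h = h) (g2 : act g w = w) (g3 : Commute g k)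
    (g4 : g * y * g⁻¹ = y⁻¹) (hk : act k w = w + u1 + u2) (y1 : act y u1 = ω ^ 2 • u1) (y2 : act y u2 = ω • u2)
    (b1 : br h u1 = u1) (b2 : br h u2 = 0) : act k w = w := by
  have h2 : (2 : K) = 0 := CharTwo.two_eq_zero
  have k1 : act g u1 + act g u2 = u1 + u2 := by
    have h1 := congrArg (act g) hk
    rw [← act_mul, g3.eq, act_mul, g2, hk, act_add, act_add, g2, add_assoc, add_assoc] at h1
    exact (add_left_cancel h1).symm
  have k2 : ∀ (u : L8 K) (c d : K), act y u = c • u → d * c = 1 → act y (act g u) = d • act g u := fun u c d e e' => by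
    have h1 : act y⁻¹ (act g u) = c • act g u := by rw [← g4, ← act_mul, inv_mul_cancel_right, act_mul, e, act_smul]
    apply act_injective y⁻¹
    rw [act_inv, act_smul, h1, smul_smul, e', one_smul]
  have k3 := congrArg (act y) k1
  rw [act_add, act_add, k2 u1 _ ω y1 (om3 hω), k2 u2 _ (ω ^ 2) y2 (om3' hω), y1, y2] at k3
  have k4 : act g u1 = u2 := by
    have h3 : act g u2 = u1 + u2 - act g u1 := by rw [← k1, add_sub_cancel_left]
    rw [h3] at k3
    funext i
    have h4 := congrFun k3 i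
    simp only [Pi.add_apply, Pi.smul_apply, Pi.sub_apply, smul_eq_mul] at h4
    linear_combination h4 + (act g u1 i - u2 i) * hω - ω * (act g u1 i - u2 i) * h2
  have k5 : u2 = 0 := by rw [← k4, ← b1, act_br, g1, k4, b2]
  rw [hk, k5, act_eq_zero (k4.trans k5), add_zero, add_zero]

end lie

/-! ### frames -/

section frame

variable [CharP K 2] {x g k : G8 K} {j : M9 K →ₗ[K] L8 K} {M M' N N' : M9 K}

omit [CharP K 2] in
theorem Fr.eq (h : Fr x j) {A B : M9 K} (e : j A = j B) (e' : trace A = trace B) : A = B := by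
  have h1 := h.inj (A - B) (by rw [map_sub, e, sub_self])
  rwa [trace_sub, e', sub_self, zero_smul, sub_eq_zero] at h1

omit [CharP K 2] in
theorem Fr.scalar (h : Fr x j) (h1 : Lk j g M M') (h2 : Lk j g N N') : ∃ c : K, M = c • N := by
  have h3 := h1.mul h2.inv
  rw [mul_inv_cancel] at h3
  obtain ⟨c, hc⟩ := mem_range_scalar_iff_commute_single'.2 fun a b => show Commute (single a b 1) (M * N') by
    have h4 := h.eq ((act_one _).symm.trans (h3.act (single a b 1))) (h3.trace _).symm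
    show _ * _ = _ * _
    conv_lhs => rw [h4, mul_assoc, h3.l, mul_one]
  refine ⟨c, ?_⟩
  rw [← mul_one M, ← h2.l, ← mul_assoc, ← hc, scalar_apply, ← smul_eq_diagonal_mul]

omit [CharP K 2] in
theorem Fr.inv [IsAlgClosed K] (h : Fr x j) (hk : Commute k x) (hk2 : k * k = 1) : ∃ a, Lk j k a a := by
  obtain ⟨M, M', h1⟩ := h.lk k hk
  obtain ⟨c, hc⟩ := h.scalar (N := 1) (N' := 1) (h1.mul h1) (by rw [hk2]; exact Lk.one)
  obtain ⟨s, rfl⟩ := IsAlgClosed.exists_pow_nat_eq c two_pos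
  have hs : s ≠ 0 := by
    rintro rfl
    have h2 := (h1.mul h1).r
    rw [hc, zero_pow two_ne_zero, zero_smul, zero_mul] at h2
    exact zero_ne_one h2
  have h2 := h1.smul (inv_ne_zero hs)
  have h3 : s⁻¹ • M * s⁻¹ • M = 1 := by rw [smul_mul_smul_comm, hc, smul_smul, ← sq, ← mul_pow, inv_mul_cancel₀ hs]; simp
  exact ⟨_, left_inv_eq_right_inv h2.l h3 ▸ h2⟩

theorem trace_inv {a : M9 K} (h : a * a = 1) : trace a = 1 := by
  have h1 := trace_sq a
  rw [h, trace_one9, sq] at h1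
  exact one_of_sq CharTwo.two_eq_zero h1.symm

omit [CharP K 2] in
theorem rk_eq (A B : M9 K) (i : Fin 9) :
    A * single i i 1 * B = vecMulVec (A *ᵥ Pi.single i 1) (Pi.single i 1 ᵥ* B) := by
  rw [single_eq_single_vecMulVec_single, mul_vecMulVec, vecMulVec_mul]

omit [CharP K 2] in
theorem rk_zero {A B : M9 K} {i : Fin 9} (h : A * single i i 1 * B = 0) : A * single i i 1 = 0 ∨ single i i 1 * B = 0 := by
  rw [rk_eq, vecMulVec_eq_zero] at h
  rw [single_eq_single_vecMulVec_single, mul_vecMulVec, vecMulVec_mul]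
  exact h.imp (fun e => by rw [e, zero_vecMulVec]) fun e => by rw [e, vecMulVec_zero]

omit [CharP K 2] in
theorem Bl.Ne {i : Fin 9} {p q X Z : M9 K} (h : Bl (single i i 1) p q X Z) : X * Z * single i i 1 = 0 := by
  have h1 : X * Z * single i i 1 = single i i ((X * Z) i i) := by
    rw [← h.ee, ← mul_assoc, ← h.eN, single_mul_mul_single, one_mul, mul_one]
  have h2 : X * Z * single i i 1 * (X * Z * single i i 1) = 0 := by
    rw [mul_assoc (X * Z), ← mul_assoc (single i i 1), h.eN, ← mul_assoc, ← mul_assoc, h.NN, zero_mul, zero_mul]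
  rw [h1, single_mul_single_same] at h2
  have h3 := congrFun (congrFun h2 i) i
  rw [single_apply_same, Matrix.zero_apply, mul_self_eq_zero] at h3
  rw [h1, h3, single_zero]

/-- the case of rank one -/
theorem case1 {ω : K} (hω : ω ^ 2 + ω + 1 = 0) {y : G8 K} (h : Fr x j) {i : Fin 9} {p q X Z : M9 K}
    (B : Bl (single i i 1) p q X Z) (hy : Lk j y (single i i 1 + ω • p + ω ^ 2 • q) (single i i 1 + ω ^ 2 • p + ω • q))
    (h0 : Z * single i i 1 * X ≠ 0) {hp hm : L8 K} (Hp : Hx (x * y) hp) (Hm : Hx (x * y⁻¹) hm)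
    (hh : j p = hp ∧ j q = hm ∨ j p = hm ∧ j q = hp) : Extr (j (X * Z)) ∧
      (∀ g : G8 K, Commute g x → act g hp = hm → act g hm = hp → br (j (X * Z)) (act g (j (X * Z))) = 0) ∧
      ∀ s : G8 K, s * x * s⁻¹ = y → s * y * s⁻¹ = x⁻¹ → act s hp = hm → act s hm = hp →
        br (j (X * Z)) (act s (j (X * Z))) = 0 := by
  obtain ⟨-, y1, y2, -, y3, y4, -⟩ := yy hω B.pp B.qq B.pq B.qp B.sum rfl rfl
  have k0 := B.Ne
  have k1 : X * single i i 1 = 0 := (rk_zero B.XeX).resolve_right fun e => h0 (by rw [mul_assoc, e, mul_zero])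
  have k2 : X * Z = Z * single i i 1 * X := by rw [B.dec k0, k1, zero_mul, add_zero]
  have k3 : single i i 1 * X * (Z * single i i 1) = 0 := by rw [mul_assoc, ← mul_assoc X, k0, mul_zero]
  have k4 : X * Z * p = X * Z := B.Np.trans k2.symm
  have k5 : p * (X * Z) = X * Z := by rw [k2, ← B.pZ, ← mul_assoc, ← mul_assoc, B.pp]
  refine ⟨?_, fun g g1 g2 g3 => ?_, fun s s1 s2 s3 s4 => ?_⟩
  · rw [rk_eq] at h0
    rw [k2, rk_eq]
    refine h.ext _ _ ?_ (fun e => h0 (by rw [e, zero_vecMulVec])) fun e => h0 (by rw [e, vecMulVec_zero])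
    have h1 := congrFun (congrFun k0 i) i
    rw [mul_single_apply_same, mul_one] at h1
    rw [dotProduct_mulVec, vecMul_vecMul, single_one_vecMul, dotProduct_single, mul_one]
    exact h1
  · obtain ⟨M, M', l⟩ := h.lk g g1
    have h1 : trace p = trace q := by
      have h2 := congrArg trace B.sum
      have h3 : (2 : K) = 0 := CharTwo.two_eq_zero
      rw [trace_add, trace_add, trace_single_eq_same, trace_one9] at h2
      linear_combination h2 - trace q * h3
    have h2 : M * p * M' = q := h.eq (by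
      rw [← l.act]
      rcases hh with ⟨e1, e2⟩ | ⟨e1, e2⟩
      · rw [e1, e2, g2]
      · rw [e1, e2, g3]) ((l.trace p).trans h1)
    have h3 : q * (M * (X * Z) * M') = M * (X * Z) * M' := by
      rw [← h2, mul_assoc (M * p), ← mul_assoc M', ← mul_assoc M', l.l, one_mul, ← mul_assoc, mul_assoc M, k5]
    have h4 : M * (X * Z) * M' * q = M * (X * Z) * M' := by
      rw [← h2, mul_assoc (M * _), ← mul_assoc M', ← mul_assoc M', l.l, one_mul, ← mul_assoc, mul_assoc M, k4]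
    rw [l.act, h.br, ← h3, ← mul_assoc, ← k4, mul_assoc _ p, B.pq, mul_zero, zero_mul, zero_add, k4, h3, ← h4, mul_assoc,
      ← k5, ← mul_assoc q, B.qp, zero_mul, mul_zero, map_zero]
  · have h1 : j (X * Z) = br (j (Z * single i i 1)) (j (single i i 1 * X)) := by
      rw [h.br, k3, add_zero, mul_assoc, ← mul_assoc (single i i 1), B.ee, ← mul_assoc, ← k2]
    have a1 : act y (j (Z * single i i 1)) = ω • j (Z * single i i 1) := by
      rw [hy.act, mul_assoc, mul_assoc, y3, ← B.pZ, ← mul_assoc, y2, smul_mul_assoc, map_smul]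
    have a2 : act y (j (single i i 1 * X)) = ω ^ 2 • j (single i i 1 * X) := by
      rw [hy.act, ← mul_assoc, y1, B.eX, mul_assoc, y4, mul_smul_comm, map_smul]
    have a3 : br (j p) (j (Z * single i i 1)) = j (Z * single i i 1) := by
      rw [h.br, mul_assoc, B.ep, mul_zero, add_zero, ← B.pZ, ← mul_assoc, B.pp]
    have a4 : br (j q) (j (Z * single i i 1)) = 0 := by
      rw [h.br, mul_assoc, B.symm.ep, mul_zero, add_zero, ← B.pZ, ← mul_assoc, B.qp, zero_mul, map_zero]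
    have a5 : br (j p) (j (single i i 1 * X)) = j (single i i 1 * X) := by
      rw [h.br, ← mul_assoc, B.pe, zero_mul, zero_add, B.eX, mul_assoc, B.pp]
    have a6 : br (j q) (j (single i i 1 * X)) = 0 := by
      rw [h.br, ← mul_assoc, B.symm.pe, zero_mul, zero_add, B.eX, mul_assoc, B.pq, mul_zero, map_zero]
    have c := fun {u v ε δ} => lie_c1 (u := u) (v := v) (ε := ε) (δ := δ) Hp Hm hh s1 s2 s3 s4
    have c1 := c (h.fix _) a1 (h.fix _) a1 (Or.inl rfl) a3 a4 a3 a4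
    have c2 := c (h.fix _) a1 (h.fix _) a2 (Or.inr (om3 hω)) a3 a4 a5 a6
    have c3 := c (h.fix _) a2 (h.fix _) a1 (Or.inr (om3' hω)) a5 a6 a3 a4
    have c4 := c (h.fix _) a2 (h.fix _) a2 (Or.inl rfl) a5 a6 a5 a6
    rw [h1, act_br]
    exact br_br_zero (br_comm_zero (br_br_zero (br_comm_zero c1) (br_comm_zero c3)))
      (br_comm_zero (br_br_zero (br_comm_zero c2) (br_comm_zero c4)))

omit [CharP K 2] in
/-- the case of rank zero -/
theorem case0 (h : Fr x j) {i : Fin 9} {p q X Z : M9 K} (B : Bl (single i i 1) p q X Z) (h1 : Z * single i i 1 * X = 0)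
    (h2 : X * single i i 1 * Z = 0) : ∃ r, (r = p ∨ r = q) ∧
      br (j r) (j (X * single i i 1 + single i i 1 * X)) = j (X * single i i 1 + single i i 1 * X) ∧
      br (j r) (j (Z * single i i 1 + single i i 1 * Z)) = 0 := by
  by_cases e : X * single i i 1 = 0 ∧ Z * single i i 1 = 0
  · refine ⟨p, Or.inl rfl, ?_, ?_⟩
    · rw [e.1, zero_add, h.br, ← mul_assoc, B.pe, zero_mul, zero_add, B.eX, mul_assoc, B.pp]
    · rw [e.2, zero_add, h.br, ← mul_assoc, B.pe, zero_mul, zero_add, B.eZ, mul_assoc, B.qp, mul_zero, map_zero]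
  · have e' : single i i 1 * X = 0 ∧ single i i 1 * Z = 0 := by
      rcases not_and_or.1 e with e | e
      · exact ⟨(rk_zero B.XeX).resolve_left e, (rk_zero h2).resolve_left e⟩
      · exact ⟨(rk_zero h1).resolve_left e, (rk_zero B.symm.XeX).resolve_left e⟩
    refine ⟨q, Or.inr rfl, ?_, ?_⟩
    · rw [e'.1, add_zero, h.br, mul_assoc, B.symm.ep, mul_zero, add_zero, ← B.qX, ← mul_assoc, B.qq]
    · rw [e'.2, add_zero, h.br, mul_assoc, B.symm.ep, mul_zero, add_zero, ← B.pZ, ← mul_assoc, B.qp, zero_mul, map_zero]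

end frame

/-- **A4X** -/
theorem a4x : A4X.{u} := by
  intro F _ _ _ x y k w X hx hy hc hk hk2 hr d1 d2 d3 d4 hw hX
  have := charKb (F := F)
  have h2 : (2 : Kb F) = 0 := CharTwo.two_eq_zero
  obtain ⟨ω, hω⟩ := Inf.exists_root (F := F) (N := 3) (by exact_mod_cast three_ne)
  have ho := om_rel hω
  obtain ⟨j, i, p, q, Y', h, pp, qq, pq, qp, sum, ly, Hp, Hm⟩ := nf hω hx hy hc d1 d2 d3 d4
  have x3 : (x * y) ^ 3 = 1 := by rw [hc.mul_pow, hx, hy, mul_one]
  have x3' : (x * y⁻¹) ^ 3 = 1 := by rw [hc.inv_right.mul_pow, hx, inv_pow, hy, inv_one, mul_one]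
  rw [hx_eq x3 d3 Hp, hx_eq x3' d4 Hm] at hw
  obtain ⟨y0, -⟩ := yy ho pp qq pq qp sum rfl rfl
  obtain rfl := left_inv_eq_right_inv ly.l y0
  obtain ⟨a, la⟩ := h.inv hk hk2
  have lb := (ly.mul la).mul ly.inv
  have lc := (ly.inv.mul la).mul ly
  rw [← mul_assoc] at lb lc
  obtain ⟨hXd, hZd⟩ := blocks h2 ho sum a rfl rfl
  generalize (single i i 1 + ω • p + ω ^ 2 • q) * a * (single i i 1 + ω ^ 2 • p + ω • q) = b at lb hXd hZd
  generalize (single i i 1 + ω ^ 2 • p + ω • q) * a * (single i i 1 + ω • p + ω ^ 2 • q) = c at lc hXd hZd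
  have lab := la.mul lb
  obtain ⟨κ, hκ⟩ := h.scalar (N := c) (N' := c) lab (by rw [hr]; exact lc)
  have hκ' : κ • (b * a) = c := by
    have h3 := lab.l
    rw [hκ, mul_smul_comm, ← smul_mul_assoc] at h3
    exact left_inv_eq_right_inv h3 lc.r
  obtain rfl : κ = 1 := by
    have h3 := congrArg trace hκ'
    rw [trace_smul, trace_mul_comm, hκ, trace_smul, trace_inv lc.r, smul_eq_mul, smul_eq_mul, mul_one] at h3
    exact one_of_sq h2 h3
  rw [one_smul] at hκ hκ'
  obtain ⟨XX, ZZ, XZ, hN, ea, eb, ec⟩ := klein h2 ho la.r lb.r hκ hκ' rfl rfl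
  obtain ⟨i1, i2, i3⟩ := inter pp qq pq qp sum hXd
  obtain ⟨i4, i5, i6⟩ := inter qq pp qp pq (by rw [← sum]; abel) hZd
  generalize a + ω • b + ω ^ 2 • c = X1 at *
  generalize a + ω ^ 2 • b + ω • c = X2 at *
  have B : Bl (single i i 1) p q X1 X2 := ⟨pp, qq, pq, qp, sum, i1, i2, i3, i4, i6, i5, XX, ZZ, XZ⟩
  have cb : Commute (y * k * y⁻¹) x := (hc.symm.mul_left hk).mul_left hc.symm.inv_left
  have cc : Commute (y⁻¹ * k * y) x := (hc.symm.inv_left.mul_left hk).mul_left hc.symm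
  have bb : y * k * y⁻¹ * (y * k * y⁻¹) = 1 := by rw [conj_mul, hk2, mul_one, mul_inv_cancel]
  have cc' : y⁻¹ * k * y * (y⁻¹ * k * y) = 1 := by
    rw [show y⁻¹ * k * y * (y⁻¹ * k * y) = y⁻¹ * (k * k) * y by group, hk2, mul_one, inv_mul_cancel]
  rw [(h.yv k a hk hk2 la).eq, (h.yv _ b cb bb lb).eq, (h.yv _ c cc cc' lc).eq, ← zero_add (j a), ← h.one, ← map_add,
    ← map_add, ← map_add, ← hN] at hX
  have ew : w = j (single i i 1) := by
    have h3 := h.one
    rw [← sum, map_add, map_add, add_assoc, add_comm (j p), ← hw] at h3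
    exact (eq_of_add_L h3).symm
  have t1 := B.conj B.Ne (one_mul (1 : Kb F))
  have t2 := B.conj B.Ne (om3' ho)
  have t3 := B.conj B.Ne (om3 ho)
  rw [← ea] at t1
  rw [← eb] at t2
  rw [← ec] at t3
  have sw : ∀ {g z z' : G8 (Kb F)} {v v' : L8 (Kb F)}, z' ^ 3 = 1 → ev (LK (Kb F) z') 1 = 92 → Hx z v → Hx z' v' →
      g * z * g⁻¹ = z' → act g v = v' := fun e1 e2 H H' e => act_hx e1 (Or.inl e2) H H' (by rw [← e, inv_mul_cancel_right])
  refine ⟨fun e => Hm.ne ?_, ?_, fun v v1 v2 v3 => ?_, ?_⟩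
  · have h3 := h.inj _ (ew.symm.trans e)
    rw [trace_single_eq_same, one_smul] at h3
    rw [← mul_one p, ← h3, B.pe, map_zero]
  · rw [hX, ew, la.act, lb.act, lc.act, t1, t2, t3, ← map_add, ← map_add, ← map_add]
    exact congrArg j (sum4 h2 ho _ _ _ _)
  · obtain ⟨A, rfl⟩ := h.onto v v1
    have h3 : ∀ {g : G8 (Kb F)} {a : M9 (Kb F)}, Lk j g a a → act g (j A) = j A → Commute a A := fun {g a} l e => by
      have h4 := h.eq ((l.act A).symm.trans e) (l.trace A)
      show _ * _ = _ * _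
      conv_rhs => rw [← h4, mul_assoc, l.r, mul_one]
    have h4 : Commute (X1 * X2) A := by
      rw [hN, ← hκ]
      exact (((Commute.one_left A).add_left (h3 la v2)).add_left (h3 lb v3)).add_left ((h3 la v2).mul_left (h3 lb v3))
    rw [hX, h.br, h4.eq, two_M, map_zero]
  · have key : (Extr X ∧
        (∀ g : G8 (Kb F), Commute g x → act g (j q) = j p → act g (j p) = j q → br X (act g X) = 0) ∧
        ∀ s : G8 (Kb F), s * x * s⁻¹ = y → s * y * s⁻¹ = x⁻¹ → act s (j q) = j p → act s (j p) = j q →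
          br X (act s X) = 0) ∨ X2 * single i i 1 * X1 = 0 ∧ X1 * single i i 1 * X2 = 0 := by
      by_cases e1 : X2 * single i i 1 * X1 = 0
      · by_cases e2 : X1 * single i i 1 * X2 = 0
        · exact Or.inr ⟨e1, e2⟩
        · rw [hX, XZ]
          refine Or.inl (case1 (om5 ho) h B.symm ?_ e2 Hp Hm (Or.inl ⟨rfl, rfl⟩))
          rw [om4 ho, add_right_comm, add_right_comm _ (ω • q)]
          exact ly
      · rw [hX]
        exact Or.inl (case1 ho h B ly e1 Hp Hm (Or.inr ⟨rfl, rfl⟩))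
    rcases key with ⟨k1, k2, k3⟩ | ⟨k1, k2⟩
    · refine Or.inl ⟨k1, fun g g1 g2 => k2 g g1 (sw x3' d4 Hp Hm ?_) (sw x3 d3 Hm Hp ?_),
        fun s s1 s2 => k3 s s1 s2 (sw x3' d4 Hp.inv Hm ?_) (sw x3 d3 Hm Hp ?_)⟩
      · rw [← conj_mul, g1.mul_inv_cancel, g2]
      · rw [← conj_mul, g1.mul_inv_cancel, ← conj_inv, g2, inv_inv]
      · rw [← conj_inv, ← conj_mul, s1, s2, _root_.mul_inv_rev, inv_inv]
      · rw [← conj_mul, s1, ← conj_inv, s2, inv_inv, hc.eq]
    · refine Or.inr fun g g1 g2 g3 => ?_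
      have h3 : act g (j q) = j q := sw x3 d3 Hp.inv Hp (by
        rw [← conj_inv, ← conj_mul, g1, g2, _root_.mul_inv_rev, inv_inv, inv_inv, hc.eq])
      have h4 : act g (j p) = j p := sw x3' d4 Hm.inv Hm (by
        rw [← conj_inv, ← conj_mul, g1, ← conj_inv, g2, _root_.mul_inv_rev, inv_inv, inv_inv, hc.inv_right.eq])
      obtain ⟨r, hr', b1, b2⟩ := case0 h B k1 k2
      refine lie_n0 ho (h := j r) (by rcases hr' with rfl | rfl; exacts [h4, h3]) (by rw [hw, act_add, h3, h4]) g3 g2 ?_ ?_ ?_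
        b1 b2
      · rw [ew, la.act, t1, B.dec B.Ne, k1, k2, add_zero, add_zero, one_smul, one_smul, map_add, map_add]
      · rw [ly.act, B.eig ho, map_smul]
      · have h5 := B.symm.eig (om5 ho)
        rw [om4 ho, add_right_comm, add_right_comm _ (ω • q)] at h5
        rw [ly.act, h5, map_smul]

end Cfsg.Agent.E8A.TwoB
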