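import Cfsg.Agent.E8A.TwoH.V14

/-!
# The subalgebra of type `A₈` of `E₈` in characteristic 2 (helper44)

* `io : Matrix (Fin 9) (Fin 9) K →ₗ[K] L8 K`; `io_br`, `io_kf`, `io_one`, `io_inj`, `io_onto`;
* `Lk j g M M'` : `g` acts as the matrix `M`; `Fr x j` : the fixed space of `x` as a matrix algebra; `fr_io`.
-/

set_option autoImplicit false
set_option maxRecDepth 100000

namespace Cfsg.Agent.E8A.TwoB

open CoxeterSystem Cfsg Cfsg.Lie Module
open Matrix hiding J J_transpose
open Cfsg.Agent.ChevalleyStructure Cfsg.Agent.ChevalleyStructure.CoxeterGeom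
  Cfsg.Agent.ChevalleyStructure.CoxeterGeomTypes
open Cfsg.Agent.Tits.Roots Cfsg.Agent.Nodes.Reps Cfsg.Agent.Nodes.BNOf Cfsg.Agent.Nodes.RGDChev
open Cfsg.Agent.KFacts.RgdChevCoord Cfsg.Agent.H129.TorusChar
open Cfsg.Agent.H942.E8Tab (e8T)
open Cfsg.Agent.H288.E8L (Q8 wt wt_inl wt_inr rt_vec vec_ne_zero exists_idx wt_inj)
open Cfsg.Agent.H897.T5Lat (bf_apply)
open Cfsg.Agent.E8A.Frm (B0 fm8 finW8)
open Cfsg.Agent.E8A.Inf (kf kf_comm kf_act kf_act')
open Cfsg.Agent.E8A.Par (op vec_op kf_ee act_xr Extr)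
open Cfsg.Agent.E8A.Reg5.Cls (ex dz Cj)
open Cfsg.Agent.E8A.Two Cfsg.Agent.E8A.TwoH

universe u

/-! ### the lattice -/

/-- partial sums of a chain of type `A₈` -/
def v9 (i : Fin 9) : Q8 := fun k =>
  ([[0, 0, 0, 0, 0, 0, 0, 0], [1, 0, 0, 0, 0, 0, 0, 0], [1, 0, 1, 0, 0, 0, 0, 0], [1, 0, 1, 1, 0, 0, 0, 0],
    [1, 0, 1, 1, 1, 0, 0, 0], [1, 0, 1, 1, 1, 1, 0, 0], [1, 0, 1, 1, 1, 1, 1, 0], [1, 0, 1, 1, 1, 1, 1, 1],
    [-1, -3, -3, -5, -4, -3, -2, -1]].getD i []).getD k 0

/-- three times the weights of the natural module -/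
def nn (i : Fin 9) : Q8 := fun k => 3 * v9 i k - [2, -1, 1, 0, 0, 0, 0, 0].getD k 0

/-- the indices of the roots -/
def iA : List (List ℕ) := [[0, 162, 163, 164, 165, 166, 167, 168, 14], [77, 0, 135, 136, 137, 138, 139, 140, 6],
  [76, 104, 0, 130, 131, 132, 133, 134, 5], [75, 103, 109, 0, 126, 127, 128, 129, 4], [74, 102, 108, 113, 0, 123,
  124, 125, 3], [73, 101, 107, 112, 116, 0, 121, 122, 2], [72, 100, 106, 111, 115, 118, 0, 120, 1], [71, 99, 105,
  110, 114, 117, 119, 0, 0], [225, 233, 234, 235, 236, 237, 238, 239, 0]]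

/-- the root `v i - v j` -/
def ra (i j : Fin 9) : Fin chevE8.nroots := ⟨(iA.getD j []).getD i 0 % 240, Nat.mod_lt _ (by norm_num)⟩

theorem vec_ra : ∀ i j : Fin 9, i ≠ j → vec chevE8 8 (ra i j) = v9 i - v9 j := by decide +kernel

theorem exists_ra : ∀ r : Fin chevE8.nroots, 3 ∣ vec chevE8 8 r 1 → ∃ i j, i ≠ j ∧ r = ra i j := by decide +kernel

theorem v9_one : ∀ i : Fin 9, 3 ∣ v9 i 1 := by decide

theorem B0_nn0 : ∀ i j : Fin 9, (∑ k, ∑ l, nn i k * cartanOf chevE8 8 k l * nn j l) = if i = j then 8 else -1 := by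
  decide +kernel

theorem nn_sum0 : ∀ k : Fin 8, ∑ i : Fin 9, (∑ a, ∑ b, nn i a * cartanOf chevE8 8 a b * (sr k : Q8) b) • nn i =
    (9 : ℤ) • (sr k : Q8) := by decide +kernel

theorem nn_zero : ∑ i : Fin 9, nn i = 0 := by decide +kernel

theorem B0_nn (i j : Fin 9) : B0 (nn i) (nn j) = if i = j then 8 else -1 := by rw [bf_apply, B0_nn0]

theorem nn_sub (i j : Fin 9) : nn i - nn j = (3 : ℤ) • (v9 i - v9 j) := by
  funext k
  simp only [nn, Pi.sub_apply, Pi.smul_apply, smul_eq_mul]
  ring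

theorem B0_nv (k i j : Fin 9) :
    B0 (nn k) (v9 i - v9 j) = 3 * ((if k = i then 1 else 0) - if k = j then 1 else 0) := by
  have h := congrArg (B0 (nn k)) (nn_sub i j)
  rw [map_sub, B0_nn, B0_nn, map_smul, smul_eq_mul] at h
  split_ifs at h ⊢ <;> omega

theorem B0_vv (i j k l : Fin 9) : B0 (v9 i - v9 j) (v9 k - v9 l) = ((if i = k then 1 else 0) - if i = l then 1 else 0) -
    ((if j = k then 1 else 0) - if j = l then 1 else 0) := by
  have h := congrArg (fun a => B0 a (v9 k - v9 l)) (nn_sub i j)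
  simp only [map_sub B0 (nn i), map_smul, LinearMap.sub_apply, LinearMap.smul_apply, smul_eq_mul, B0_nv] at h
  omega

theorem ra_inj {i j k l : Fin 9} (h1 : i ≠ j) (h2 : k ≠ l) (h : ra i j = ra k l) : i = k ∧ j = l := by
  have h3 := B0_vec (ra i j)
  nth_rw 2 [h] at h3
  rw [vec_ra i j h1, vec_ra k l h2, B0_vv] at h3
  split_ifs at h3 <;> simp_all

theorem op_ra {i j : Fin 9} (h : i ≠ j) : op (ra i j) = ra j i :=
  vec_injective (by rw [vec_op, vec_ra i j h, vec_ra j i h.symm, neg_sub])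

/-! ### the linear map -/

variable {K : Type u} [Field K]

/-- the matrices -/
abbrev M9 (K : Type u) : Type u := Matrix (Fin 9) (Fin 9) K

variable (K) in
/-- the images of the elementary matrices -/
def bv (i j : Fin 9) : L8 K := if i = j then hq K (nn i) else ee K (Sum.inr (ra i j))

theorem bv_eq (i : Fin 9) : bv K i i = hq K (nn i) := if_pos rfl

theorem bv_ne {i j : Fin 9} (h : i ≠ j) : bv K i j = ee K (Sum.inr (ra i j)) := if_neg h

variable (K) in
/-- the linear map -/
def io : M9 K →ₗ[K] L8 K where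
  toFun A := ∑ i, ∑ j, A i j • bv K i j
  map_add' A B := by simp only [Matrix.add_apply, add_smul, Finset.sum_add_distrib]
  map_smul' c A := by simp only [Matrix.smul_apply, smul_eq_mul, mul_smul, Finset.smul_sum, RingHom.id_apply]

theorem io_apply (A : M9 K) : io K A = ∑ i, ∑ j, A i j • bv K i j := rfl

theorem io_single (i j : Fin 9) (c : K) : io K (single i j c) = c • bv K i j := by
  rw [io_apply, Finset.sum_eq_single i, Finset.sum_eq_single j, single_apply_same]
  · intro l _ hl
    rw [single_apply_of_col_ne _ _ hl.symm, zero_smul]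
  · exact fun h => absurd (Finset.mem_univ _) h
  · intro k _ hk
    exact Finset.sum_eq_zero fun l _ => by rw [single_apply_of_row_ne hk.symm, zero_smul]
  · exact fun h => absurd (Finset.mem_univ _) h

theorem io_diag (d : Fin 9 → K) : io K (diagonal d) = ∑ i, d i • hq K (nn i) := by
  rw [io_apply]
  refine Finset.sum_congr rfl fun i _ => ?_
  rw [Finset.sum_eq_single i, diagonal_apply_eq, bv_eq]
  · intro l _ hl
    rw [diagonal_apply_ne' _ hl, zero_smul]
  · exact fun h => absurd (Finset.mem_univ _) h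

theorem inT_diag (d : Fin 9 → K) : InT (io K (diagonal d)) := fun r => by
  rw [io_diag, Finset.sum_apply]
  exact Finset.sum_eq_zero fun i _ => mul_zero _

theorem rl_sum {ι : Type*} (s : Finset ι) (f : ι → L8 K) (a : Q8) : rl (∑ i ∈ s, f i) a = ∑ i ∈ s, rl (f i) a := by
  classical
  induction s using Finset.induction_on with
  | empty => exact rl_zero a
  | insert i s hi ih => rw [Finset.sum_insert hi, Finset.sum_insert hi, rl_add, ih]

theorem rl_diag (d : Fin 9 → K) (a : Q8) : rl (io K (diagonal d)) a = ∑ i, d i * ((B0 (nn i) a : ℤ) : K) := by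
  rw [io_diag, rl_sum]
  exact Finset.sum_congr rfl fun i _ => by rw [rl_smul, rl_hq]

theorem rl_ee (r : Fin chevE8.nroots) (a : Q8) : rl (ee K (Sum.inr r)) a = 0 := by
  rw [rl_congr (w := 0) fun i => ee_ne (by simp), rl_zero]

theorem io_one : io K 1 = 0 := by
  rw [← diagonal_one]
  refine inT_ext (inT_diag _) (fun _ => rfl) fun k => ?_
  rw [rl_diag, rl_zero]
  simp only [one_mul]
  rw [← Int.cast_sum, ← LinearMap.sum_apply, ← map_sum, nn_zero, map_zero, LinearMap.zero_apply, Int.cast_zero]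

theorem io_ra (A : M9 K) {i j : Fin 9} (h : i ≠ j) : io K A (Sum.inr (ra i j)) = A i j := by
  induction A using Matrix.induction_on' with
  | h_zero => rw [map_zero]; rfl
  | h_add A B hA hB => rw [map_add, Pi.add_apply, hA, hB, Matrix.add_apply]
  | h_std_basis k l c =>
    rw [io_single, Pi.smul_apply, smul_eq_mul]
    by_cases e : k = i ∧ l = j
    · rw [e.1, e.2, bv_ne h, ee_self, mul_one, single_apply_same]
    · rw [single_apply_of_ne _ _ _ _ _ e]
      by_cases e' : k = l
      · rw [e', bv_eq, inT_hq, mul_zero]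
      · rw [bv_ne e', ee_ne fun h' => e (ra_inj e' h (Sum.inr.inj h').symm), mul_zero]

variable [CharP K 2]

theorem cast_nn (i j : Fin 9) : ((B0 (nn i) (nn j) : ℤ) : K) = (if i = j then 1 else 0) + 1 := by
  have h2 : (2 : K) = 0 := CharTwo.two_eq_zero
  rw [B0_nn]
  split_ifs
  · push_cast
    linear_combination 3 * h2
  · push_cast
    linear_combination -h2

theorem cast_nv (k i j : Fin 9) :
    ((B0 (nn k) (v9 i - v9 j) : ℤ) : K) = (if k = i then 1 else 0) + if k = j then 1 else 0 := by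
  have h2 : (2 : K) = 0 := CharTwo.two_eq_zero
  rw [B0_nv]
  split_ifs <;> push_cast
  exacts [by linear_combination -h2, by linear_combination h2, by linear_combination -2 * h2, by ring]

theorem rl_bv (i j k : Fin 9) : rl (bv K i j) (nn k) = if i = j then (if i = k then 1 else 0) + 1 else 0 := by
  by_cases h : i = j
  · rw [if_pos h, ← h, bv_eq, rl_hq, cast_nn]
  · rw [if_neg h, bv_ne h, rl_ee]

theorem rl_io (A : M9 K) (k : Fin 9) : rl (io K A) (nn k) = A k k + trace A := by
  induction A using Matrix.induction_on' with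
  | h_zero => rw [map_zero, rl_zero, trace_zero, add_zero]; rfl
  | h_add A B hA hB => rw [map_add, rl_add, hA, hB, Matrix.add_apply, trace_add]; ring
  | h_std_basis i j c =>
    rw [io_single, rl_smul, rl_bv]
    by_cases e : i = j
    · subst e
      rw [if_pos rfl, trace_single_eq_same]
      by_cases e' : i = k
      · rw [if_pos e', e', single_apply_same, mul_add, mul_one]
      · rw [if_neg e', single_apply_of_row_ne e', zero_add, zero_add, mul_one]
    · rw [if_neg e, trace_single_eq_of_ne _ _ _ e, single_apply_of_ne _ _ _ _ _ fun h => e (h.1.trans h.2.symm), mul_zero,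
        add_zero]

theorem io_inj {A : M9 K} (h : io K A = 0) : A = trace A • (1 : M9 K) := by
  ext i j
  rw [Matrix.smul_apply, smul_eq_mul]
  by_cases e : i = j
  · subst e
    have h1 := rl_io A i
    rw [h, rl_zero] at h1
    rw [one_apply_eq, mul_one]
    exact (CharTwo.add_eq_zero.1 h1.symm)
  · rw [one_apply_ne e, mul_zero, ← io_ra A e, h]
    rfl

theorem io_T {h : L8 K} (hh : InT h) : h = io K (diagonal fun i => rl h (nn i)) := by
  refine inT_ext hh (inT_diag _) fun k => ?_
  have h1 := congrArg (rl h) (nn_sum0 k)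
  rw [map_sum, map_zsmul, zsmul_eq_mul] at h1
  rw [rl_diag, Finset.sum_congr rfl fun i _ => by rw [bf_apply, mul_comm, ← zsmul_eq_mul, ← map_zsmul], h1]
  have h2 : (2 : K) = 0 := CharTwo.two_eq_zero
  push_cast
  linear_combination (-4 * rl h (sr k)) * h2

theorem io_onto {v : L8 K} (hv : v ∈ LS K {a | 3 ∣ a 1}) : ∃ A, v = io K A := by
  suffices h : v ∈ LinearMap.range (io K) from h.imp fun _ e => e.symm
  rw [← Finset.univ_sum_single v]
  refine Submodule.sum_mem _ fun i _ => ?_
  by_cases h0 : v i = 0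
  · rw [h0, Pi.single_zero]
    exact zero_mem _
  · rcases i with i | r
    · exact ⟨_, (io_T fun r => Pi.single_eq_of_ne (by simp) _).symm⟩
    · obtain ⟨i, j, hij, rfl⟩ := exists_ra r (hv _ h0)
      exact ⟨single i j (v (Sum.inr (ra i j))), by rw [io_single, bv_ne hij, ee, ← Pi.single_smul, smul_eq_mul, mul_one]⟩

omit [CharP K 2] in
theorem io_mem (A : M9 K) : io K A ∈ LS K {a | 3 ∣ a 1} := by
  rw [io_apply]
  refine Submodule.sum_mem _ fun i _ => Submodule.sum_mem _ fun j _ => Submodule.smul_mem _ _ ?_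
  by_cases e : i = j
  · rw [e, bv_eq]
    exact LS_mono (fun a ha => by rw [Set.mem_singleton_iff.1 ha]; exact dvd_zero 3) (inT_iff.1 (inT_hq _))
  · rw [bv_ne e]
    refine ee_mem_LS ?_
    rw [wt_inr, vec_ra i j e]
    exact dvd_sub (v9_one i) (v9_one j)

theorem br_bv1 (i : Fin 9) {k l : Fin 9} (h : k ≠ l) :
    br (bv K i i) (bv K k l) = (if i = k then bv K i l else 0) + if l = i then bv K k i else 0 := by
  rw [bv_eq, bv_ne h, br_T_ee (inT_hq _), ← rl_vec, rl_hq, vec_ra k l h, cast_nv, add_smul, ← bv_ne h]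
  congr 1
  · split_ifs with e
    · rw [e, one_smul]
    · rw [zero_smul]
  · by_cases e : i = l
    · rw [if_pos e, if_pos e.symm, e, one_smul]
    · rw [if_neg e, if_neg (Ne.symm e), zero_smul]

theorem br_bv2 {i j l : Fin 9} (h1 : i ≠ j) (h2 : j ≠ l) (h3 : i ≠ l) : br (bv K i j) (bv K j l) = bv K i l := by
  rw [bv_ne h1, bv_ne h2, bv_ne h3]
  exact br_ee (by rw [vec_ra _ _ h1, vec_ra _ _ h2, vec_ra _ _ h3, sub_add_sub_cancel])

theorem br_bv (i j k l : Fin 9) :
    br (bv K i j) (bv K k l) = (if j = k then bv K i l else 0) + if l = i then bv K k j else 0 := by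
  by_cases h1 : i = j
  · subst h1
    by_cases h2 : k = l
    · subst h2
      have h3 : br (bv K i i) (bv K k k) = 0 := by
        funext m
        rw [bv_eq, bv_eq, br_T (inT_hq _)]
        rcases m with m | r
        · rw [wt_inl, map_zero, zero_mul]; rfl
        · exact mul_zero _
      rw [h3]
      by_cases e : i = k
      · rw [if_pos e, if_pos e.symm, e, two_L]
      · rw [if_neg e, if_neg (Ne.symm e), add_zero]
    · exact br_bv1 i h2
  · by_cases h2 : k = l
    · subst h2
      rw [br_comm, br_bv1 k h1, add_comm]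
    · by_cases e1 : j = k
      · subst e1
        rw [if_pos rfl]
        by_cases e2 : l = i
        · subst e2
          rw [if_pos rfl, bv_ne h1, bv_ne h2, ← op_ra h1, br_ee_op, vec_ra _ _ h1, bv_eq, bv_eq]
          refine inT_ext (inT_hq _) (fun r => add_zero _) fun m => ?_
          have h3 := congrArg (fun a => ((B0 a (sr m) : ℤ) : K)) (nn_sub l j)
          simp only [map_sub B0 (nn l), map_smul, LinearMap.sub_apply, LinearMap.smul_apply, smul_eq_mul] at h3
          have h4 : (2 : K) = 0 := CharTwo.two_eq_zero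
          rw [rl_add, rl_hq, rl_hq, rl_hq]
          push_cast at h3
          linear_combination -h3 - (((B0 (v9 l - v9 j) (sr m) : ℤ) : K) + ((B0 (nn j) (sr m) : ℤ) : K)) * h4
        · rw [if_neg e2, add_zero, br_bv2 h1 h2 (Ne.symm e2)]
      · rw [if_neg e1, zero_add]
        by_cases e2 : l = i
        · subst e2
          rw [if_pos rfl, br_comm, br_bv2 h2 h1 (Ne.symm e1)]
        · rw [if_neg e2, bv_ne h1, bv_ne h2]
          refine br_ee_zero ?_
          rw [vec_ra _ _ h1, vec_ra _ _ h2, B0_vv, if_neg e1, if_neg (Ne.symm e2)]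
          split_ifs <;> norm_num

theorem io_br (A B : M9 K) : br (io K A) (io K B) = io K (A * B + B * A) := by
  induction A using Matrix.induction_on' with
  | h_zero => rw [map_zero, br_zero_left, Matrix.zero_mul, Matrix.mul_zero, add_zero, map_zero]
  | h_add A A' hA hA' => rw [map_add, br_add_left, hA, hA', ← map_add, Matrix.add_mul, Matrix.mul_add]; congr 1; abel
  | h_std_basis i j c =>
    induction B using Matrix.induction_on' with
    | h_zero => rw [map_zero, br_zero_right, Matrix.zero_mul, Matrix.mul_zero, add_zero, map_zero]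
    | h_add A A' hA hA' => rw [map_add, br_add_right, hA, hA', ← map_add, Matrix.add_mul, Matrix.mul_add]; congr 1; abel
    | h_std_basis k l d =>
      rw [io_single, io_single, br_smul_left, br_smul_right, br_bv, smul_smul, smul_add, map_add]
      congr 1
      · split_ifs with e
        · rw [e, single_mul_single_same, io_single]
        · rw [single_mul_single_of_ne _ _ _ _ e, map_zero, smul_zero]
      · split_ifs with e
        · rw [e, single_mul_single_same, io_single, mul_comm]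
        · rw [single_mul_single_of_ne _ _ _ _ e, map_zero, smul_zero]

theorem io_kf (A B : M9 K) : kf K (io K A) (io K B) = trace (A * B) + trace A * trace B := by
  induction A using Matrix.induction_on' with
  | h_zero => simp
  | h_add A A' hA hA' => rw [map_add, map_add, LinearMap.add_apply, hA, hA', Matrix.add_mul, trace_add, trace_add]; ring
  | h_std_basis i j c =>
    rw [io_single, map_smul, LinearMap.smul_apply, trace_single_mul, smul_eq_mul, smul_eq_mul]
    by_cases e : i = j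
    · subst e
      rw [bv_eq, kf_hq, rl_io, trace_single_eq_same, mul_add]
    · rw [bv_ne e, kf_ee, op_ra e, io_ra B (Ne.symm e), trace_single_eq_of_ne _ _ _ e, zero_mul, add_zero]

/-! ### elements which act as matrices -/

omit [CharP K 2] in
/-- `g` acts as `M` -/
structure Lk (j : M9 K →ₗ[K] L8 K) (g : G8 K) (M M' : M9 K) : Prop where
  r : M * M' = 1
  l : M' * M = 1
  act : ∀ A, act g (j A) = j (M * A * M')

namespace Lk

omit [CharP K 2]

variable {j : M9 K →ₗ[K] L8 K} {g g' : G8 K} {M M' N N' : M9 K}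

theorem one : Lk j 1 1 1 := ⟨mul_one _, mul_one _, fun A => by rw [act_one, one_mul, mul_one]⟩

theorem mul (h : Lk j g M M') (h' : Lk j g' N N') : Lk j (g * g') (M * N) (N' * M') where
  r := by rw [mul_assoc, ← mul_assoc N, h'.r, one_mul, h.r]
  l := by rw [mul_assoc, ← mul_assoc M', h.l, one_mul, h'.l]
  act A := by rw [act_mul, h'.act, h.act]; simp only [mul_assoc]

theorem inv (h : Lk j g M M') : Lk j g⁻¹ M' M where
  r := h.l
  l := h.r
  act A := act_injective g (by
    rw [act_inv', h.act, ← mul_assoc, ← mul_assoc, h.r, one_mul, mul_assoc, h.r, mul_one])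

theorem smul (h : Lk j g M M') {c : K} (hc : c ≠ 0) : Lk j g (c • M) (c⁻¹ • M') where
  r := by rw [smul_mul_smul_comm, mul_inv_cancel₀ hc, one_smul, h.r]
  l := by rw [smul_mul_smul_comm, inv_mul_cancel₀ hc, one_smul, h.l]
  act A := by rw [h.act, smul_mul_assoc, smul_mul_smul_comm, mul_inv_cancel₀ hc, one_smul]

theorem trace (h : Lk j g M M') (A : M9 K) : trace (M * A * M') = trace A := by
  rw [trace_mul_cycle, h.l, one_mul]

theorem conj (h : Lk j g M M') (c : G8 K) : Lk (LK K c ∘ₗ j) (c * g * c⁻¹) M M' where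
  r := h.r
  l := h.l
  act A := by
    show E8A.act _ (E8A.act c (j A)) = E8A.act c (j _)
    rw [← act_mul, inv_mul_cancel_right, act_mul, h.act]

end Lk

omit [CharP K 2] in
/-- the elements which act as matrices -/
def CS (j : M9 K →ₗ[K] L8 K) : Subgroup (G8 K) where
  carrier := {g | ∃ M M', Lk j g M M'}
  one_mem' := ⟨_, _, Lk.one⟩
  mul_mem' := fun ⟨_, _, h⟩ ⟨_, _, h'⟩ => ⟨_, _, h.mul h'⟩
  inv_mem' := fun ⟨_, _, h⟩ => ⟨_, _, h.inv⟩

theorem two_M (A : M9 K) : A + A = 0 := Matrix.ext fun i j => CharTwo.add_self_eq_zero (A i j)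

theorem lk_xr {i j : Fin 9} (h : i ≠ j) (c : K) : Lk (io K) (xr (ra i j) c) (1 + single i j c) (1 + single i j c) := by
  have h1 : (1 + single i j c : M9 K) * (1 + single i j c) = 1 := by
    rw [add_mul, mul_add, mul_add, one_mul, one_mul, mul_one, single_mul_single_of_ne _ _ _ _ h.symm, add_zero, add_assoc,
      two_M, add_zero]
  refine ⟨h1, h1, fun A => ?_⟩
  have h2 : ee K (Sum.inr (ra i j)) = io K (single i j 1) := by rw [io_single, bv_ne h, one_smul]
  rw [act_xr, kf_ee, op_ra h, io_ra A h.symm, h2, io_br, sub_L, ← map_smul, ← map_smul, ← map_add, ← map_add]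
  congr 1
  rw [add_mul, mul_add, one_mul, mul_one, add_mul, single_mul_mul_single, smul_add, ← smul_mul_assoc,
    ← mul_smul_comm, smul_single, smul_single, smul_eq_mul, smul_eq_mul, mul_one, mul_one,
    show c * A j i * c = c ^ 2 * A j i by ring]
  abel

omit [CharP K 2] in
theorem lk_mc {t : G8 K} {φ : Q8 → K} (hφ : IsMC φ) (ht : ∀ v i, act t v i = φ (wt i) * v i) :
    Lk (io K) t (diagonal fun i => φ (v9 i)) (diagonal fun i => (φ (v9 i))⁻¹) where
  r := by rw [diagonal_mul_diagonal, ← diagonal_one]; congr 1; funext i; exact mul_inv_cancel₀ (hφ.ne_zero _)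
  l := by rw [diagonal_mul_diagonal, ← diagonal_one]; congr 1; funext i; exact inv_mul_cancel₀ (hφ.ne_zero _)
  act A := by
    rw [io_apply, io_apply, act_sum]
    refine Finset.sum_congr rfl fun i _ => ?_
    rw [act_sum]
    refine Finset.sum_congr rfl fun j _ => ?_
    rw [act_smul, mul_diagonal, diagonal_mul]
    funext m
    rw [Pi.smul_apply, Pi.smul_apply, ht, smul_eq_mul, smul_eq_mul]
    by_cases e : i = j
    · subst e
      rw [mul_right_comm (φ _), mul_inv_cancel₀ (hφ.ne_zero _), one_mul, bv_eq]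
      rcases m with m | r
      · rw [wt_inl, hφ.zero, one_mul]
      · rw [inT_hq, mul_zero]
    · rw [bv_ne e]
      by_cases e' : m = Sum.inr (ra i j)
      · rw [e', wt_inr, vec_ra i j e, hφ.sub, div_eq_mul_inv]
        ring
      · rw [ee_ne e', mul_zero, mul_zero, mul_zero]

omit [CharP K 2] in
theorem mc_ex {c : K} (hc : c ≠ 0) (y : Q8) : IsMC fun a => c ^ ex y a :=
  ⟨by rw [Reg5.Cls.ex_zero, zpow_zero], fun a b => by rw [ex_add', zpow_add₀ hc]⟩

theorem cs_col (i : Fin 9) (w : Fin 9 → K) (hw : w i = 0) :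
    ∃ g M', Lk (io K) g (1 + vecMulVec w (Pi.single i 1)) M' := by
  have key : ∀ s : Finset (Fin 9), i ∉ s → ∃ g M', Lk (io K) g (1 + ∑ k ∈ s, single k i (w k)) M' := by
    intro s
    induction s using Finset.induction_on with
    | empty => exact fun _ => ⟨1, 1, by rw [Finset.sum_empty, add_zero]; exact Lk.one⟩
    | insert k s hk ih =>
      intro hi
      rw [Finset.mem_insert, not_or] at hi
      obtain ⟨g, M', h⟩ := ih hi.2
      have h1 := (lk_xr (Ne.symm hi.1) (w k)).mul h
      rw [add_mul, one_mul, mul_add, mul_one, Finset.mul_sum, Finset.sum_eq_zero (s := s)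
        (f := fun l => single k i (w k) * single l i (w l)) fun l hl =>
          single_mul_single_of_ne _ _ _ _ (fun e : i = l => hi.2 (e ▸ hl)) _, add_zero] at h1
      exact ⟨_, _, by rwa [Finset.sum_insert hk, add_comm (single _ _ _), ← add_assoc]⟩
  have h1 := key (Finset.univ.erase i) (Finset.notMem_erase _ _)
  rw [Finset.sum_erase _ (by rw [hw, single_zero])] at h1
  convert h1 using 5
  ext a b
  simp [vecMulVec_apply, Matrix.sum_apply, single, Pi.single_apply, ite_and, eq_comm]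

theorem cs_row (i : Fin 9) (w : Fin 9 → K) (hw : w i = 0) :
    ∃ g M', Lk (io K) g (1 + vecMulVec (Pi.single i 1) w) M' := by
  have key : ∀ s : Finset (Fin 9), i ∉ s → ∃ g M', Lk (io K) g (1 + ∑ k ∈ s, single i k (w k)) M' := by
    intro s
    induction s using Finset.induction_on with
    | empty => exact fun _ => ⟨1, 1, by rw [Finset.sum_empty, add_zero]; exact Lk.one⟩
    | insert k s hk ih =>
      intro hi
      rw [Finset.mem_insert, not_or] at hi
      obtain ⟨g, M', h⟩ := ih hi.2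
      have h1 := (lk_xr hi.1 (w k)).mul h
      rw [add_mul, one_mul, mul_add, mul_one, Finset.mul_sum, Finset.sum_eq_zero (s := s)
        (f := fun l => single i k (w k) * single i l (w l)) fun l _ =>
          single_mul_single_of_ne _ _ _ _ (Ne.symm hi.1) _, add_zero] at h1
      exact ⟨_, _, by rwa [Finset.sum_insert hk, add_comm (single _ _ _), ← add_assoc]⟩
  have h1 := key (Finset.univ.erase i) (Finset.notMem_erase _ _)
  rw [Finset.sum_erase _ (by rw [hw, single_zero])] at h1
  convert h1 using 5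
  ext a b
  simp [vecMulVec_apply, Matrix.sum_apply, single, Pi.single_apply, ite_and, eq_comm]

omit [CharP K 2] in
theorem extr_smul {x : L8 K} (h : Extr x) {c : K} (hc : c ≠ 0) : Extr (c • x) := by
  obtain ⟨g, r, d, hd, rfl⟩ := h
  exact ⟨g, r, c * d, mul_ne_zero hc hd, smul_smul _ _ _⟩

theorem extr_row (i : Fin 9) {f : Fin 9 → K} (hi : f i = 0) (hf : f ≠ 0) :
    Extr (io K (vecMulVec (Pi.single i 1) f)) := by
  obtain ⟨j, hj⟩ := Function.ne_iff.1 hf
  replace hj : f j ≠ 0 := hj
  have hij : i ≠ j := fun e => hj (e ▸ hi)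
  obtain ⟨g, M', h⟩ := cs_row j ((f j)⁻¹ • f - Pi.single j 1) (by simp [hj])
  have h1 : Extr (io K (single i j 1)) := ⟨1, ra i j, 1, one_ne_zero, by rw [io_single, bv_ne hij, act_one]⟩
  have h2 := extr_smul (h1.act g⁻¹) hj
  have h3 : (1 + vecMulVec (Pi.single j 1) ((f j)⁻¹ • f - Pi.single j 1) : M9 K) *ᵥ Pi.single i 1 = Pi.single i 1 := by
    rw [add_mulVec, one_mulVec, vecMulVec_mulVec]
    simp [hi, hij]
  have h4 : M' *ᵥ Pi.single i 1 = Pi.single i 1 := by
    conv_lhs => rw [← h3, mulVec_mulVec, h.l, one_mulVec]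
  rw [h.inv.act, single_eq_single_vecMulVec_single, mul_vecMulVec, vecMulVec_mul, h4, vecMul_add, vecMul_one,
    vecMul_vecMulVec, ← map_smul, ← vecMulVec_smul] at h2
  simpa [hj] using h2

theorem extr_io {a f : Fin 9 → K} (h0 : f ⬝ᵥ a = 0) (ha : a ≠ 0) (hf : f ≠ 0) : Extr (io K (vecMulVec a f)) := by
  obtain ⟨i, hi⟩ := Function.ne_iff.1 ha
  replace hi : a i ≠ 0 := hi
  obtain ⟨g, M', h⟩ := cs_col i ((a i)⁻¹ • a - Pi.single i 1) (by simp [hi])
  generalize hM : (1 + vecMulVec ((a i)⁻¹ • a - Pi.single i 1) (Pi.single i 1) : M9 K) = M at h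
  have h3 : M *ᵥ Pi.single i 1 = (a i)⁻¹ • a := by
    rw [← hM, add_mulVec, one_mulVec, vecMulVec_mulVec]
    simp
  have h4 : f ᵥ* M ᵥ* M' = f := by rw [vecMul_vecMul, h.r, vecMul_one]
  have h1 := extr_row i (f := f ᵥ* M) (by
    have h5 := dotProduct_mulVec f M (Pi.single i 1)
    rw [h3, dotProduct_smul, h0, smul_zero, dotProduct_single, mul_one] at h5
    exact h5.symm) fun e => hf (by rw [← h4, e, zero_vecMul])
  have h2 := extr_smul (h1.act g) hi
  rwa [h.act, mul_vecMulVec, vecMulVec_mul, h3, h4, ← map_smul, ← smul_vecMulVec, smul_inv_smul₀ hi] at h2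

/-! ### frames -/

omit [CharP K 2] in
/-- the fixed space of `x` as a matrix algebra -/
structure Fr (x : G8 K) (j : M9 K →ₗ[K] L8 K) : Prop where
  br : ∀ A B, br (j A) (j B) = j (A * B + B * A)
  one : j 1 = 0
  inj : ∀ A, j A = 0 → A = trace A • (1 : M9 K)
  fix : ∀ A, act x (j A) = j A
  onto : ∀ v, act x v = v → ∃ A, v = j A
  lk : ∀ g, Commute g x → ∃ M M', Lk j g M M'
  ext : ∀ a f, f ⬝ᵥ a = 0 → a ≠ 0 → f ≠ 0 → Extr (j (vecMulVec a f))
  yv : ∀ k M, Commute k x → k * k = 1 → Lk j k M M → Yv k (j M)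

omit [CharP K 2] in
theorem Fr.conj {x : G8 K} {j : M9 K →ₗ[K] L8 K} (h : Fr x j) (c : G8 K) : Fr (c * x * c⁻¹) (LK K c ∘ₗ j) := by
  have e : ∀ A, (LK K c ∘ₗ j) A = act c (j A) := fun _ => rfl
  have e1 : ∀ g, Commute g (c * x * c⁻¹) → Commute (c⁻¹ * g * c) x := fun g hg => by
    have h1 := hg.conj c⁻¹
    rwa [inv_inv, show c⁻¹ * (c * x * c⁻¹) * c = x by group] at h1
  have e2 : ∀ g : G8 K, c * (c⁻¹ * g * c) * c⁻¹ = g := fun g => by group
  refine ⟨fun A B => ?_, ?_, fun A hA => ?_, fun A => ?_, fun v hv => ?_, fun g hg => ?_, fun a f h0 ha hf => ?_,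
    fun k M hk hk2 hM => ?_⟩
  · rw [e, e, e, ← act_br, h.br]
  · rw [e, h.one, act_zero]
  · exact h.inj A (act_eq_zero hA)
  · rw [e, ← act_mul, inv_mul_cancel_right, act_mul, h.fix]
  · obtain ⟨A, hA⟩ := h.onto (act c⁻¹ v) (by
      conv_rhs => rw [← hv, ← act_mul, mul_assoc, inv_mul_cancel_left, act_mul])
    exact ⟨A, by rw [e, ← hA, act_inv']⟩
  · obtain ⟨M, M', hM⟩ := h.lk _ (e1 g hg)
    exact ⟨M, M', e2 g ▸ hM.conj c⟩
  · exact (h.ext a f h0 ha hf).act c
  · have h1 := (h.yv (c⁻¹ * k * c) M (e1 k hk) (by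
      rw [show c⁻¹ * k * c * (c⁻¹ * k * c) = c⁻¹ * (k * k) * c by group, hk2, mul_one, inv_mul_cancel]) ⟨hM.r, hM.l, fun A => by
        rw [act_mul, act_mul, ← e, hM.act, e, act_inv]⟩).conj c
    rwa [e2] at h1

theorem trace_sq (A : M9 K) : trace (A * A) = trace A ^ 2 := by
  induction A using Matrix.induction_on' with
  | h_zero => simp
  | h_add A B hA hB =>
    rw [add_mul, mul_add, mul_add, trace_add, trace_add, trace_add, trace_add, hA, hB, trace_mul_comm B A, CharTwo.add_sq]
    linear_combination CharTwo.add_self_eq_zero (trace (A * B))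
  | h_std_basis i j c =>
    by_cases e : i = j
    · rw [e, single_mul_single_same, trace_single_eq_same, trace_single_eq_same, sq]
    · rw [single_mul_single_of_ne _ _ _ _ (Ne.symm e), trace_single_eq_of_ne _ _ _ e, trace_zero, zero_pow two_ne_zero]

theorem trace_one9 : trace (1 : M9 K) = 1 := by
  rw [trace_one, Fintype.card_fin]
  push_cast
  linear_combination 4 * (CharTwo.two_eq_zero : (2 : K) = 0)

variable {ω : K} {t : G8 K}

omit [CharP K 2] in
theorem fix_iff (hω : IsPrimitiveRoot ω 3) (ht : mx t = dz ω (Pi.single 1 1)) {v : L8 K} :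
    act t v = v ↔ v ∈ LS K {a | 3 ∣ a 1} := by
  refine funext_iff.trans (forall_congr' fun i => ?_)
  rw [act_dz ht, ex_single]
  by_cases h0 : v i = 0
  · simp [h0]
  · rw [mul_eq_right₀ h0, hω.zpow_eq_one_iff_dvd]
    exact ⟨fun h _ => h, fun h => h h0⟩

theorem yv_io (hω : IsPrimitiveRoot ω 3) (ht : mx t = dz ω (Pi.single 1 1)) {k : G8 K} {M : M9 K} (hk : Commute k t)
    (hk2 : k * k = 1) (h : Lk (io K) k M M) : Yv k (io K M) := by
  refine yv_of_basis hk2 fun i => ?_
  by_cases hi : (3 : ℤ) ∣ wt i 1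
  · obtain ⟨B, hB⟩ := io_onto (K := K) (ee_mem_LS (A := {a | 3 ∣ a 1}) hi)
    have h1 := trace_sq M
    rw [h.r, trace_one9] at h1
    rw [hB, h.act, io_kf, io_kf, h.trace, mul_assoc (M * B), trace_sq, CharTwo.add_sq, mul_pow, ← h1, one_mul, sq (trace B)]
  · have h1 : act t (ee K i) = ω ^ wt i 1 • ee K i := by
      funext m
      rw [act_dz ht, ex_single, Pi.smul_apply, smul_eq_mul]
      by_cases e : m = i
      · rw [e]
      · rw [ee_ne e, mul_zero, mul_zero]
    have h2 := kf_act t (io K M) (ee K i)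
    have h3 := kf_act t (act k (ee K i)) (ee K i)
    rw [(fix_iff hω ht).2 (io_mem M), h1, map_smul, smul_eq_mul] at h2
    rw [← act_mul, ← hk.eq, act_mul, h1, act_smul, map_smul, map_smul, LinearMap.smul_apply, smul_eq_mul, smul_eq_mul,
      ← mul_assoc, ← zpow_add₀ (hω.ne_zero (by norm_num))] at h3
    have h4 : ∀ (m : ℤ) (c : K), ¬ 3 ∣ m → ω ^ m * c = c → c = 0 := fun m c hm e => by
      by_contra hc
      rw [mul_eq_right₀ hc, hω.zpow_eq_one_iff_dvd] at e
      exact hm e
    rw [h4 _ _ hi h2, h4 _ _ (by omega) h3, zero_pow two_ne_zero]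

section

variable {F : Type u} [Field F] [Finite F] [CharP F 2] {ω : Kb F} {t : G8 (Kb F)}

theorem cent_cs (hω : IsPrimitiveRoot ω 3) (ht : mx t = dz ω (Pi.single 1 1)) (h3 : t ^ 3 = 1) {g : G8 (Kb F)}
    (hg : Commute g t) : g ∈ CS (io (Kb F)) := by
  have := charKb (F := F)
  have : Fact (Nat.Prime 2) := ⟨Nat.prime_two⟩
  have h0 := hω.ne_zero (by norm_num)
  obtain ⟨t', ht', e⟩ := exists_tz h0 (Pi.single 1 1)
  obtain rfl : t = t' := mx_injective (ht.trans e.symm)
  have hFinW : Finite CoxeterMatrix.E₈.Group := finite_W e8T CoxeterMatrix.E₈.toCoxeterSystem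
  have hFrm := H897.T5UntwRow.par8.frm (CoxeterMatrix.E₈.toCoxeterSystem) e8T.isCartan
    (fun i j => (H897.T5UntwRow.n8 i j).1) (fun i j => (H897.T5UntwRow.n8 i j).2)
  have hcon := H897.T5Cent.con_of_frm e8T CoxeterMatrix.E₈.toCoxeterSystem (locFinKb F) 2 Nat.prime_three (by norm_num)
    BpExc.FamInst.inv_E8 (Nat.coprime_one_left _) hFrm
  obtain ⟨m, hm, s, hs, rfl⟩ := H897.T5Cent.cent_form e8T CoxeterMatrix.E₈.toCoxeterSystem (locFinKb F) 2 hcon ht' h3 hg.eq
  refine mul_mem (sup_le_of (fun a ha => ha.1) (fun r hr c => ?_) hm) ⟨_, _, lk_mc (isMC_cX e8T hs) (act_TT hs)⟩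
  have h1 := hr.2 t rfl
  have h2 := congrFun (congrFun ((mx_TT ht').symm.trans ht) (Sum.inr r)) (Sum.inr r)
  rw [dz, diagonal_apply_eq, diagonal_apply_eq, wt_inr, cX_root e8T _ ht' hr.1, h1, eq_comm, hω.zpow_eq_one_iff_dvd,
    ex_single] at h2
  obtain ⟨i, j, hij, rfl⟩ := exists_ra r h2
  exact ⟨_, _, lk_xr hij c⟩

theorem fr_io (hω : IsPrimitiveRoot ω 3) (ht : mx t = dz ω (Pi.single 1 1)) (h3 : t ^ 3 = 1) : Fr t (io (Kb F)) :=
  have := charKb (F := F)
  ⟨io_br, io_one, fun _ => io_inj, fun A => (fix_iff hω ht).2 (io_mem A), fun _ hv => io_onto ((fix_iff hω ht).1 hv),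
    fun _ hg => cent_cs hω ht h3 hg, fun _ _ => extr_io, fun _ _ => yv_io hω ht⟩

end

end Cfsg.Agent.E8A.TwoB
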