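import Cfsg.Agent.E8A.TwoB.NilA
import Cfsg.Agent.E8A.TwoB.Iface
import Cfsg.Agent.E8A.TwoH.Perm

/-!
# The box NILF
-/

set_option autoImplicit false
set_option maxRecDepth 100000

namespace Cfsg.Agent.E8A.TwoB.Nil

open Equiv Finset
open scoped Pointwise
open Cfsg.Agent.E8A.TwoH Cfsg.Agent.R2.T1.Odd
open Cfsg.Agent.E8A.Inf (kf kf_act)
open Cfsg.Agent.E8A.Par (ux act_ux conj_ux ux_congr ux_fix ux_ne_one ux_pow paru)

universe u

/-! ### transitivity -/

section trans

variable {α : Type*} [DecidableEq α] [Fintype α]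

theorem exists_fam {ι : Type*} [Fintype ι] {S T : ι → Finset α} (hS : Pairwise fun i j => Disjoint (S i) (S j))
    (hT : Pairwise fun i j => Disjoint (T i) (T j)) (h : ∀ i, (S i).card = (T i).card) :
    ∃ σ : Perm α, ∀ i, σ • S i = T i := by
  have inj : ∀ {S : ι → Finset α}, (Pairwise fun i j => Disjoint (S i) (S j)) →
      Function.Injective fun x : Σ i, S i => (x.2 : α) := by
    rintro S hS ⟨i, a, ha⟩ ⟨j, b, hb⟩ (rfl : a = b)
    obtain rfl : i = j := by
      by_contra hne
      exact disjoint_left.1 (hS hne) ha hb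
    rfl
  obtain ⟨σ, hσ⟩ := Perm.exists_extending_pair (fun x : Σ i, S i => (x.2 : α))
    (fun x : Σ i, S i => (equivOfCardEq (h x.1) x.2 : α)) (inj hS)
    ((inj hT).comp (Equiv.sigmaCongrRight fun i => equivOfCardEq (h i)).injective)
  refine ⟨σ, fun i => eq_of_subset_of_card_le (fun b hb => ?_) (by rw [card_smul_finset, h])⟩
  obtain ⟨a, ha, rfl⟩ := mem_smul_finset.1 hb
  rw [Perm.smul_def, show σ a = _ from hσ ⟨i, a, ha⟩]
  exact (equivOfCardEq (h i) ⟨a, ha⟩).2

theorem trans3 {A B C A' B' C' : Finset α} (hA : A.card = A'.card) (hB : B.card = B'.card) (hC : C.card = C'.card)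
    (hI : (A ∩ B).card = (A' ∩ B').card) (h : A ∪ B ⊆ C) (h' : A' ∪ B' ⊆ C') :
    ∃ σ : Perm α, σ • A = A' ∧ σ • B = B' ∧ σ • C = C' := by
  have dis : ∀ A B C : Finset α, Pairwise fun i j => Disjoint (![A ∩ B, A \ B, B \ A, C \ (A ∪ B)] i)
      (![A ∩ B, A \ B, B \ A, C \ (A ∪ B)] j) := by
    intro A B C i j hij
    fin_cases i <;> fin_cases j <;> simp [disjoint_left] at hij ⊢ <;> tauto
  obtain ⟨σ, hσ⟩ := exists_fam (dis A B C) (dis A' B' C') fun i => by
    have := card_sdiff_add_card_inter A B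
    have := card_sdiff_add_card_inter A' B'
    have := card_sdiff_add_card_inter B A
    have := card_sdiff_add_card_inter B' A'
    have := card_union_add_card_inter A B
    have := card_union_add_card_inter A' B'
    have := card_sdiff_add_card_eq_card h
    have := card_sdiff_add_card_eq_card h'
    rw [inter_comm B, inter_comm B'] at *
    fin_cases i <;> simp <;> omega
  have h0 : σ • (A ∩ B) = A' ∩ B' := hσ 0
  have h1 : σ • (A \ B) = A' \ B' := hσ 1
  have h2 : σ • (B \ A) = B' \ A' := hσ 2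
  have h3 : σ • (C \ (A ∪ B)) = C' \ (A' ∪ B') := hσ 3
  have e1 : σ • A = A' := by rw [← sdiff_union_inter A B, smul_finset_union, h0, h1, sdiff_union_inter]
  have e2 : σ • B = B' := by
    rw [← sdiff_union_inter B A, smul_finset_union, inter_comm, h0, h2, inter_comm, sdiff_union_inter]
  exact ⟨σ, e1, e2, by rw [← sdiff_union_of_subset h, smul_finset_union, h3, smul_finset_union, e1, e2,
    sdiff_union_of_subset h']⟩

omit [Fintype α] in
theorem smul_erase (σ : Perm α) (A : Finset α) (i : α) : σ • A.erase i = (σ • A).erase (σ i) :=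
  image_erase σ.injective A i

end trans

/-! ### masks -/

variable {n : ℕ}

variable (n) in
/-- the set of a mask -/
def st (m : ℕ) : Finset (Fin n) := univ.filter fun i => m.testBit i

theorem mem_st {m : ℕ} {i : Fin n} : i ∈ st n m ↔ m.testBit i := by simp [st]

theorem st_and (a b : ℕ) : st n (a &&& b) = st n a ∩ st n b := by
  ext i
  simp [mem_st]

theorem st_erase {m : ℕ} {i : Fin n} (h : i ∈ st n m) : (st n m).erase i = st n (m ^^^ 2 ^ i.val) := by
  ext j
  rw [mem_st] at h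
  rw [mem_erase, mem_st, mem_st, Nat.testBit_xor, Nat.testBit_two_pow]
  by_cases e : j = i
  · simp [e, h]
  · simp [e, Fin.val_ne_of_ne (Ne.symm e)]

theorem bit_ge {m i : ℕ} (hm : m < 256) (hi : 8 ≤ i) : m.testBit i = false :=
  Nat.testBit_lt_two_pow (hm.trans_le (Nat.pow_le_pow_right (n := 2) (by norm_num) hi))

theorem sum_st {M : Type*} [AddCommMonoid M] (hn : 8 ≤ n) {m : ℕ} (hm : m < 256) (g : ℕ → M) :
    ∑ i ∈ st n m, g i.val = ((bits m).map g).sum := by
  rw [st, sum_filter, Fin.sum_univ_eq_sum_range (fun i => if m.testBit i then g i else 0),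
    ← sum_subset (range_subset_range.2 hn) fun i _ hi => if_neg (by rw [bit_ge hm (by simpa using hi)]; simp),
    ← sum_filter]
  simp [bits, Finset.sum, Finset.range, Multiset.range]

theorem card_st (hn : 8 ≤ n) {m : ℕ} (hm : m < 256) : (st n m).card = (bits m).length := by
  rw [card_eq_sum_ones, sum_st hn hm fun _ => 1]
  simp

theorem st_sub (hn : 8 ≤ n) {S : Finset (Fin n)} (h : S ⊆ st n 255) : ∃ m < 256, st n m = S := by
  refine ⟨Nat.ofBits fun i : Fin 8 => decide (Fin.castLE hn i ∈ S), Nat.ofBits_lt_two_pow _, ?_⟩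
  ext i
  rw [mem_st, Nat.testBit_ofBits]
  split_ifs with hi
  · exact decide_eq_true_iff
  · refine ⟨fun e => absurd e (by simp), fun e => ?_⟩
    have := mem_st.1 (h e)
    rw [bit_ge (by norm_num) (by omega)] at this
    exact absurd this (by simp)

theorem smul_st {σ : Perm (Fin n)} {m m' : ℕ} (h : ∀ i : Fin n, m'.testBit (σ i) = m.testBit i) : σ • st n m = st n m' := by
  ext i
  rw [← inv_smul_mem_iff, mem_st, mem_st, ← h]
  simp

variable [NeZero n]

theorem P_st (hn : 8 ≤ n) {l : List (ℕ × ℕ)} {m m' : ℕ}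
    (h : vl 8 l = true ∧ m < 256 ∧ m' < 256 ∧ ∀ i < 8, m'.testBit (ap l i) = m.testBit i) :
    (P n l : Alt n) • st n m = st n m' := by
  refine smul_st fun i => ?_
  rw [coe_P hn h.1, pm_apply ((vl_iff.1 h.1).2.mono hn)]
  by_cases hi : i.val < 8
  · exact h.2.2.2 _ hi
  · rw [ap_ge (vl_iff.1 h.1).2 (by omega), bit_ge h.2.1 (by omega), bit_ge h.2.2.1 (by omega)]

omit [NeZero n] in
/-- transitivity of the alternating group -/
theorem trans_alt (hn : 8 ≤ n) {a b : ℕ} (h : a < 256 ∧ b < 256 ∧ a.testBit 0 = a.testBit 1 ∧ b.testBit 0 = b.testBit 1)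
    {A B : Finset (Fin n)} (hA : A.card = (bits a).length) (hB : B.card = (bits b).length)
    (hI : (A ∩ B).card = (bits (a &&& b)).length) : ∃ s : Alt n, s • st n a = A ∧ s • st n b = B := by
  obtain ⟨σ, h1, h2, -⟩ := trans3 (C := univ) (C' := univ) ((card_st hn h.1).trans hA.symm)
    ((card_st hn h.2.1).trans hB.symm) rfl
    (by rw [← st_and, card_st hn (Nat.and_le_left.trans_lt h.1), hI]) (subset_univ _) (subset_univ _)
  rcases Int.units_eq_one_or (Perm.sign σ) with e | e
  · exact ⟨⟨σ, Perm.mem_alternatingGroup.2 e⟩, h1, h2⟩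
  · have key : ∀ m : ℕ, m.testBit 0 = m.testBit 1 →
        swap (⟨0, by omega⟩ : Fin n) ⟨1, by omega⟩ • st n m = st n m := fun m hm => smul_st fun i => by
      rw [swap_apply_def]
      split_ifs with h3 h4
      · rw [h3, hm]
      · rw [h4, hm]
      · rfl
    refine ⟨⟨σ * swap ⟨0, by omega⟩ ⟨1, by omega⟩, Perm.mem_alternatingGroup.2 (by
      rw [Perm.sign_mul, e, Perm.sign_swap (Fin.ne_of_val_ne (by norm_num))]; rfl)⟩, ?_, ?_⟩
    · show (σ * _) • st n a = A
      rw [mul_smul, key a h.2.2.1, h1]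
    · show (σ * _) • st n b = B
      rw [mul_smul, key b h.2.2.2, h2]

/-! ### the vectors -/

variable {K : Type u} [Field K] [CharP K 2]

omit [NeZero n] in
/-- brackets of length three, all sets -/
theorem three_set (hn : 8 ≤ n) {X : Finset (Fin n) → L8 K}
    (hC : ∀ A B : Finset (Fin n), A.card = 4 → B.card = 4 → (A ∩ B).card ≠ 2 → br (X A) (X B) = 0)
    (hR : ∀ R : Finset (Fin n), R.card = 5 → ∑ i ∈ R, X (R.erase i) = 0) {A B C : Finset (Fin n)} (hA : A.card = 4)
    (hB : B.card = 4) (hc : C.card = 4) : br (X C) (br (X A) (X B)) = 0 := by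
  by_cases h2 : (A ∩ B).card = 2
  swap
  · rw [hC A B hA hB h2, br_zero_right]
  have h6 := card_union_add_card_inter A B
  by_cases h1 : (C ∩ (A ∪ B)).card ≤ 1
  · exact br_br_zero
      (hC C A hc hA (by have := card_le_card (inter_subset_inter_left (s := C) (subset_union_left (s₁ := A) (s₂ := B))); omega))
      (hC C B hc hB (by have := card_le_card (inter_subset_inter_left (s := C) (subset_union_right (s₁ := A) (s₂ := B))); omega))
  obtain ⟨W, hW, -, h8⟩ := exists_subsuperset_card_eq (n := 8) (subset_univ (C ∪ (A ∪ B)))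
    (by have := card_union_add_card_inter C (A ∪ B); omega) (by simpa using hn)
  obtain ⟨σ, rfl, rfl, rfl⟩ := trans3 (A := st n 15) (B := st n 51) (C := st n 255)
    ((card_st hn (by norm_num)).trans hA.symm) ((card_st hn (by norm_num)).trans hB.symm)
    ((card_st hn (by norm_num)).trans h8.symm) (by rw [← st_and, card_st hn (by decide), h2]; rfl)
    (union_subset (by rw [← inter_eq_left, ← st_and]; rfl) (by rw [← inter_eq_left, ← st_and]; rfl))
    (subset_union_right.trans hW)
  obtain ⟨m, hm, e⟩ := st_sub hn (S := σ⁻¹ • C) fun i hi =>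
    (smul_mem_smul_finset_iff σ).1 (hW (mem_union_left _ (mem_inv_smul_finset_iff.1 hi)))
  rw [eq_inv_smul_iff] at e
  subst e
  rw [card_smul_finset, card_st hn hm] at hc
  refine three (Y := fun m => X (σ • st n m)) (fun a b ha hb h => ?_) (fun r hr => ?_) (ok_iff.2 ⟨hm, hc⟩)
  · rw [ok_iff] at ha hb
    refine hC _ _ (by rw [card_smul_finset, card_st hn ha.1, ha.2]) (by rw [card_smul_finset, card_st hn hb.1, hb.2]) ?_
    rwa [← smul_finset_inter, card_smul_finset, ← st_and, card_st hn (Nat.and_le_left.trans_lt ha.1)]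
  · rw [ok_iff] at hr
    rw [subs, List.map_map, ← sum_st hn hr.1, ← hR (σ • st n r) (by rw [card_smul_finset, card_st hn hr.1, hr.2]),
      smul_finset_def, sum_image fun _ _ _ _ e => MulAction.injective σ e]
    refine sum_congr rfl fun i hi => ?_
    show X (σ • st n (r ^^^ 2 ^ i.val)) = _
    rw [← st_erase hi, smul_erase]
    rfl

omit [NeZero n] [CharP K 2] in
theorem exists_X (ψ : Alt n →* G8 K) {x : L8 K}
    (h : ∀ a : Alt n, (∀ i : Fin n, i.val < 4 → ((a : Perm (Fin n)) i).val < 4) → act (ψ a) x = x) :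
    ∃ X : Finset (Fin n) → L8 K, ∀ a : Alt n, X (a • st n 15) = act (ψ a) x := by
  classical
  have h15 : ∀ i : Fin n, i ∈ st n 15 ↔ i.val < 4 := fun i => by
    rw [mem_st, show 15 = 2 ^ 4 - 1 from rfl, Nat.testBit_two_pow_sub_one, decide_eq_true_iff]
  refine ⟨fun A => if e : ∃ a : Alt n, a • st n 15 = A then act (ψ e.choose) x else 0, fun a => ?_⟩
  have e : ∃ b : Alt n, b • st n 15 = a • st n 15 := ⟨a, rfl⟩
  beta_reduce
  rw [dif_pos e]
  have h1 := e.choose_spec
  generalize e.choose = b at h1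
  have h2 := h (a⁻¹ * b) fun i hi => by
    rw [← h15] at hi ⊢
    have h3 : (a⁻¹ * b) • st n 15 = st n 15 := by rw [mul_smul, h1, inv_smul_smul]
    rw [← h3]
    exact smul_mem_smul_finset hi
  conv_rhs => rw [← h2, ← act_mul, ← map_mul, mul_inv_cancel_left]

/-- the relations between the vectors -/
theorem rels (hn : 8 ≤ n) (ψ : Alt n →* G8 K) {x : L8 K}
    (h : ∀ a : Alt n, (∀ i : Fin n, i.val < 4 → ((a : Perm (Fin n)) i).val < 4) → act (ψ a) x = x)
    (h3 : br x (act (ψ (P n [(3, 4), (4, 5)])) x) = 0)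
    (h1 : br x (act (ψ (P n [(0, 4), (1, 5), (2, 6), (6, 7)])) x) = 0)
    (h0 : br x (act (ψ (P n [(0, 4), (1, 5), (2, 6), (3, 7)])) x) = 0)
    (h5 : ∑ i ∈ range 5, act (ψ (P n Two.Mk.c5 ^ i)) x = 0)
    (hk : ∀ v, br x v = 0 → kf K x v = 0) :
    (∀ a b c, br (act (ψ a) x) (br (act (ψ b) x) (act (ψ c) x)) = 0) ∧ ∀ a, kf K x (act (ψ a) x) = 0 := by
  obtain ⟨X, hX⟩ := exists_X ψ h
  have c4 : ∀ a : Alt n, (a • st n 15).card = 4 := fun a => by rw [card_smul_finset, card_st hn (by norm_num)]; rfl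
  have hx : X (st n 15) = x := by simpa [act_one] using hX 1
  have hE : ∀ (s : Alt n) {A : Finset (Fin n)}, A.card = 4 → X (s • A) = act (ψ s) (X A) := fun s A hA => by
    obtain ⟨a, rfl, -⟩ := trans_alt hn (a := 15) (b := 15) (by decide) hA hA (by rw [inter_self]; exact hA)
    rw [← mul_smul, hX, hX, map_mul, act_mul]
  have hP : ∀ {l : List (ℕ × ℕ)} {m m' : ℕ}, (vl 8 l = true ∧ m < 256 ∧ m' < 256 ∧
      ∀ i < 8, m'.testBit (ap l i) = m.testBit i) → (bits m).length = 4 → act (ψ (P n l)) (X (st n m)) = X (st n m') :=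
    fun h h' => by rw [← P_st hn h, hE _ ((card_st hn h.2.1).trans h')]
  have key : ∀ {m : ℕ} {A B : Finset (Fin n)}, (15 < 256 ∧ m < 256 ∧ Nat.testBit 15 0 = Nat.testBit 15 1 ∧
      m.testBit 0 = m.testBit 1) → (bits m).length = 4 → br x (X (st n m)) = 0 → A.card = 4 → B.card = 4 →
      (A ∩ B).card = (bits (15 &&& m)).length → br (X A) (X B) = 0 := fun hm hm' e hA hB hI => by
    obtain ⟨s, rfl, rfl⟩ := trans_alt hn hm hA (hB.trans hm'.symm) hI
    rw [hX, hE s ((card_st hn hm.2.1).trans hm'), ← act_br, e, act_zero]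
  rw [← hx] at h3 h1 h0 h5
  rw [hP (m' := 23) (by decide) rfl, hx] at h3
  rw [hP (m' := 120) (by decide) rfl, hx] at h1
  rw [hP (m' := 240) (by decide) rfl, hx] at h0
  have hC : ∀ A B : Finset (Fin n), A.card = 4 → B.card = 4 → (A ∩ B).card ≠ 2 → br (X A) (X B) = 0 := by
    intro A B hA hB hI
    have h4 := card_le_card (inter_subset_left (s₁ := A) (s₂ := B))
    rcases (by omega : (A ∩ B).card = 0 ∨ (A ∩ B).card = 1 ∨ (A ∩ B).card = 3 ∨ (A ∩ B).card = 4) with e | e | e | e
    · exact key (by decide) rfl h0 hA hB e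
    · exact key (by decide) rfl h1 hA hB e
    · exact key (by decide) rfl h3 hA hB e
    · exact key (m := 15) (by decide) rfl (by rw [hx, br_self]) hA hB e
  have hR : ∀ R : Finset (Fin n), R.card = 5 → ∑ i ∈ R, X (R.erase i) = 0 := by
    intro R hR
    obtain ⟨s, rfl, -⟩ := trans_alt hn (a := 31) (b := 31) (by decide) hR hR (by rw [inter_self]; exact hR)
    have h6 : ∑ i ∈ st n 31, X ((st n 31).erase i) = 0 := by
      rw [sum_congr rfl fun i hi => by rw [st_erase hi], sum_st hn (by norm_num) fun i => X (st n (31 ^^^ 2 ^ i)), ← h5]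
      simp only [sum_range_succ, range_zero, sum_empty, pow_succ', pow_zero, map_mul, map_one, act_mul, act_one]
      rw [hP (m' := 30) (by decide) rfl, hP (m' := 29) (by decide) rfl, hP (m' := 27) (by decide) rfl,
        hP (m' := 23) (by decide) rfl]
      show X (st n 30) + (X (st n 29) + (X (st n 27) + (X (st n 23) + (X (st n 15) + 0)))) = _
      abel
    rw [smul_finset_def, sum_image fun _ _ _ _ e => MulAction.injective s e, ← act_zero (ψ s), ← h6, act_sum]
    refine sum_congr rfl fun i hi => ?_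
    rw [← hE s (by rw [card_erase_of_mem hi, card_st hn (by norm_num)]; rfl)]
    exact congrArg X (smul_erase (s : Perm (Fin n)) _ i).symm
  refine ⟨fun a b c => by rw [← hX, ← hX, ← hX]; exact three_set hn hC hR (c4 b) (c4 c) (c4 a), fun a => ?_⟩
  have c15 : (st n 15).card = 4 := card_st hn (by norm_num)
  have k2 : ∀ B : Finset (Fin n), B.card = 4 → (st n 15 ∩ B).card = 2 → kf K x (X B) = kf K x (X (st n 51)) := by
    intro B hB hI
    obtain ⟨s, e, rfl⟩ := trans_alt hn (a := 15) (b := 51) (by decide) c15 hB hI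
    conv_lhs => rw [← hx, ← e]
    rw [hE s c15, hE s (card_st hn (by norm_num)), kf_act, hx]
  have k0 : ∀ B : Finset (Fin n), B.card = 4 → (st n 15 ∩ B).card ≠ 2 → kf K x (X B) = 0 := fun B hB hI =>
    hk _ (by rw [← hx]; exact hC _ _ c15 hB hI)
  have k3 : kf K x (X (st n 51)) = 0 := by
    have h6 := hR (st n 55) (card_st hn (by norm_num))
    rw [sum_congr rfl fun i hi => by rw [st_erase hi], sum_st hn (by norm_num) fun i => X (st n (55 ^^^ 2 ^ i))] at h6
    have h7 : kf K x (X (st n 54) + (X (st n 53) + (X (st n 51) + (X (st n 39) + (X (st n 23) + 0))))) = kf K x 0 :=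
      congrArg (kf K x) h6
    have c : ∀ m < 256, (st n 15 ∩ st n m).card = (bits (15 &&& m)).length := fun m _ => by
      rw [← st_and, card_st hn (Nat.and_le_left.trans_lt (by norm_num))]
    simp only [map_add, map_zero] at h7
    rwa [k2 _ (card_st hn (by norm_num)) (c 54 (by norm_num)), k2 (st n 53) (card_st hn (by norm_num)) (c 53 (by norm_num)),
      k0 (st n 39) (card_st hn (by norm_num)) (by rw [c 39 (by norm_num)]; decide),
      k0 (st n 23) (card_st hn (by norm_num)) (by rw [c 23 (by norm_num)]; decide), add_zero, add_zero, add_zero,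
      CharTwo.add_self_eq_zero, add_zero] at h7
  rw [← hX]
  by_cases e : (st n 15 ∩ a • st n 15).card = 2
  · rw [k2 _ (c4 a) e, k3]
  · exact k0 _ (c4 a) e

/-! ### the root elements -/

/-- the group argument -/
theorem grp {G A : Type*} [Group G] [Group A] (ψ : A →* G) (U : A → G) (u0 : U 1 ≠ 1) (u3 : ∀ a, U a * U a = 1)
    (u4 : ∀ a b, ψ a * U b * (ψ a)⁻¹ = U (a * b)) (u5 : ∀ a b p, Commute (U a * U b * U a * U b) (U p)) :
    ∃ z : G, z ≠ 1 ∧ z ^ 2 = 1 ∧ ∀ a, z * (ψ a * z * (ψ a)⁻¹) = ψ a * z * (ψ a)⁻¹ * z := by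
  have ui : ∀ a, (U a)⁻¹ = U a := fun a => inv_eq_of_mul_eq_one_right (u3 a)
  by_cases hz : ∀ b, U 1 * U b * U 1 * U b = 1
  · refine ⟨U 1, u0, by rw [pow_two, u3], fun a => ?_⟩
    have h := hz (a * 1)
    rw [mul_assoc, mul_eq_one_iff_eq_inv, mul_inv_rev, ui, ui] at h
    rw [u4, h]
  · push Not at hz
    obtain ⟨b, hb⟩ := hz
    refine ⟨_, hb, ?_, fun a => ?_⟩
    · have h := (u5 1 b 1).eq
      have h2 : U 1 * U b * U 1 * U b = U 1 * (U 1 * U b * U 1 * U b) * (U 1)⁻¹ := by rw [← h, mul_inv_cancel_right]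
      rw [pow_two]
      conv_lhs => lhs; rw [h2, ui]
      calc _ = U 1 * U 1 * U b * U 1 * U b * (U 1 * U 1) * U b * U 1 * U b := by simp only [mul_assoc]
        _ = U b * U 1 * (U b * U b) * U 1 * U b := by simp only [u3, mul_one, one_mul, mul_assoc]
        _ = U b * (U 1 * U 1) * U b := by simp only [u3, mul_one, mul_assoc]
        _ = 1 := by rw [u3, mul_one, u3]
    · have h : ψ a * (U 1 * U b * U 1 * U b) * (ψ a)⁻¹ = U (a * 1) * U (a * b) * U (a * 1) * U (a * b) := by
        rw [← u4, ← u4]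
        group
      rw [h]
      exact ((((u5 1 b _).mul_right (u5 1 b _)).mul_right (u5 1 b _)).mul_right (u5 1 b _)).eq

omit [CharP K 2] in
theorem kf_zero {g : G8 K} {r : Fin Lie.chevE8.nroots} {v : L8 K} (h : br (act g (ee K (Sum.inr r))) v = 0) :
    kf K (act g (ee K (Sum.inr r))) v = 0 := by
  have h1 : br (ee K (Sum.inr r)) (act g⁻¹ v) = 0 := by
    apply act_injective g
    rw [act_br, act_inv', h, act_zero]
  have h2 := Par.kf_eq_zero_of_br h1
  rwa [← kf_act g, act_inv'] at h2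

omit [CharP K 2] in
theorem act_ux' {g : G8 K} {r : Fin Lie.chevE8.nroots} {c : K} {y v : L8 K} (hy : y = c • act g (ee K (Sum.inr r)))
    (h : kf K y v = 0) : act (ux g r c) v = v + br y v := by
  have e : c ^ 2 * kf K (act g (ee K (Sum.inr r))) v = c * kf K y v := by
    rw [hy, map_smul, LinearMap.smul_apply, smul_eq_mul]
    ring
  rw [act_ux, e, h, mul_zero, zero_smul, sub_zero, hy, br_smul_left]

/-- the root elements of a nilpotent orbit -/
theorem root {A : Type*} [Group A] (ψ : A →* G8 K) {g : G8 K} {r : Fin Lie.chevE8.nroots} {c : K} (hc : c ≠ 0)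
    {X : A → L8 K} (hX : ∀ a, X a = c • act (ψ a * g) (ee K (Sum.inr r))) (k1 : ∀ a b d, br (X a) (br (X b) (X d)) = 0)
    (k2 : ∀ a b, kf K (X a) (X b) = 0) :
    ∃ z : G8 K, z ≠ 1 ∧ z ^ 2 = 1 ∧ ∀ a, z * (ψ a * z * (ψ a)⁻¹) = ψ a * z * (ψ a)⁻¹ * z := by
  obtain ⟨U, hU⟩ : ∃ U : A → G8 K, ∀ a, U a = ux (ψ a * g) r c := ⟨_, fun _ => rfl⟩
  have u1 : ∀ a b, act (U a) (X b) = X b + br (X a) (X b) := fun a b => by
    rw [hU]
    exact act_ux' (hX a) (k2 a b)
  have u2 : ∀ a b d, act (U a) (br (X b) (X d)) = br (X b) (X d) := fun a b d => by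
    have e := k1 a b d
    rw [hX a, br_smul_left] at e
    rw [hU]
    exact ux_fix ((smul_eq_zero.1 e).resolve_left hc) c
  refine grp ψ U (by rw [hU]; exact ux_ne_one _ r hc) (fun a => by rw [hU, ← pow_two]; exact ux_pow 2 _ r c)
    (fun a b => by rw [hU, hU, conj_ux, map_mul, mul_assoc]) fun a b p => ?_
  have e : act (U a * U b * U a * U b) (X p) = X p := by
    have e1 : act (U a * U b) (X p) = X p + br (X a) (X p) + br (X b) (X p) := by rw [act_mul, u1, act_add, u1, u2]
    have e2 : ∀ d f, act (U a * U b) (br (X d) (X f)) = br (X d) (X f) := fun d f => by rw [act_mul, u2, u2]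
    rw [mul_assoc, act_mul, e1, act_add, act_add, e1, e2, e2]
    generalize br (X a) (X p) = s
    generalize br (X b) (X p) = t
    calc _ = X p + (s + s) + (t + t) := by abel
      _ = _ := by rw [two_L, two_L, add_zero, add_zero]
  generalize U a * U b * U a * U b = z at e
  rw [hX p, act_smul, ← act_mul] at e
  refine mul_inv_eq_iff_eq_mul.1 ?_
  rw [hU, conj_ux]
  exact ux_congr (smul_right_injective _ hc e) c

end Cfsg.Agent.E8A.TwoB.Nil

namespace Cfsg.Agent.E8A.TwoB

open Cfsg.Agent.E8A.Inf (kf kf_act)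

universe u

/-- **NILF** -/
theorem nilf : NILF.{u} := by
  intro F _ _ _ H n _ φ hM hn hfx x ⟨g, r, c, hc, hx⟩ h h3 h1 h0 h5
  have : Fact (Nat.Prime 2) := ⟨Nat.prime_two⟩
  obtain ⟨k1, k2⟩ := Nil.rels hn (emb0.comp φ) h h3 h1 h0 h5 fun v e => by
    rw [hx, br_smul_left] at e
    rw [hx, map_smul, LinearMap.smul_apply, Nil.kf_zero ((smul_eq_zero.1 e).resolve_left hc), smul_zero]
  generalize hψ : emb0.comp φ = ψ at k1 k2
  obtain ⟨z, z1, z2, z3⟩ := Nil.root ψ (g := g) (r := r) hc (X := fun a => act (ψ a) x)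
    (fun a => by rw [act_mul, ← act_smul, ← hx]) k1 fun a b => by
      have e := k2 (a⁻¹ * b)
      rwa [← kf_act (ψ a), ← act_mul, ← map_mul, mul_inv_cancel_left] at e
  subst hψ
  exact Par.paru 2 hM (by omega) hfx z1 z2 z3

end Cfsg.Agent.E8A.TwoB
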