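import Cfsg.Agent.E8A.TwoB.Iface2
import Cfsg.Agent.E8A.Two.Geo

/-!
# The box TBa from A4X and NILF: the permutation part (helper43)
-/

set_option autoImplicit false
set_option maxRecDepth 100000

namespace Cfsg.Agent.E8A.TwoB

namespace Tb

open Cfsg Cfsg.Lie Module Equiv
open Cfsg.Agent.R2.T1.Odd Cfsg.Agent.R2.T1.Msk
open Cfsg.Agent.H952.F4 (MaxAlt ev)
open Cfsg.Agent.E8A.Two Cfsg.Agent.E8A.TwoH

universe u

/-- `(567)(012)` -/
def p1 : List (ℕ × ℕ) := [(5, 6), (6, 7), (0, 1), (1, 2)]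

/-- `(567)(021)` -/
def p2 : List (ℕ × ℕ) := [(5, 6), (6, 7), (1, 2), (0, 1)]

/-- `c` conjugates `l` to `l'` or its inverse -/
def cjB (c l l' : List (ℕ × ℕ)) : Bool := cd 8 (c ++ l) == cd 8 (l' ++ c) || cd 8 (l' ++ (c ++ l)) == cd 8 c

/-- `c` permutes the two subgroups -/
def fw (c : List (ℕ × ℕ)) : Bool := vl 8 c && (cjB c p1 p1 && cjB c p2 p2 || cjB c p1 p2 && cjB c p2 p1)

/-- `c` stabilises `{0, 1, 2, 3}` -/
def sq (c : List (ℕ × ℕ)) : Bool := vl 8 c && (List.range 4).all fun i => Nat.blt (ap c i) 4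

/-- the three involutions -/
def kk (p : ℕ) : List (ℕ × ℕ) := [[(1, 2), (0, 3)], [(2, 0), (1, 3)], [(0, 1), (2, 3)]].getD p []

/-- the name of an involution -/
def okq (a b c d : ℕ) : Bool :=
  vl 4 [(a, b), (c, d)] && vl 4 (kk (ap [(a, b), (c, d)] 3)) && cd 4 [(a, b), (c, d)] == cd 4 (kk (ap [(a, b), (c, d)] 3))

/-- the twenty elements -/
def l20 : List (List (ℕ × ℕ)) := (List.range 5).flatMap fun i => [pwl Mk.c5 i, pwl Mk.c5 i ++ kk 2, pwl Mk.c5 i ++ kk 0, pwl Mk.c5 i ++ kk 1]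

/-- the code of the image of `{0, 1, 2}` -/
def co (a : List (ℕ × ℕ)) : ℕ := 2 ^ ap a 0 + 2 ^ ap a 1 + 2 ^ ap a 2

/-- representatives -/
def rep (m : ℕ) : List (ℕ × ℕ) := (l20.find? fun a => co a == m).getD []

/-- conjugating elements -/
def cK (k : ℕ) : List (ℕ × ℕ) := [[(0, 1), (1, 2)], [(1, 2), (0, 1)], [], [], [], [(6, 7), (5, 6), (0, 5), (1, 7), (7, 2), (2, 6)],
  [(0, 5), (1, 7), (7, 2), (2, 6)], [(5, 6), (6, 7), (0, 5), (1, 7), (7, 2), (2, 6)]].getD k []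

variable {F : Type u} [Field F] [Finite F] [CharP F 2] {n : ℕ} [NeZero n] {ψ : Alt n →* G8 (Kb F)}

variable (ψ) in
/-- the vector `w` -/
noncomputable def wz : L8 (Kb F) := hx (ψ (P n p1)) + hx (ψ (P n p2))

variable (ψ) in
/-- the vector `X` -/
noncomputable def Xv : L8 (Kb F) := yv (ψ (P n (kk 2))) + yv (ψ (P n (kk 0))) + yv (ψ (P n (kk 1)))

omit [Finite F] [CharP F 2] in
theorem t33 (hn : 8 ≤ n) (d : Dm ψ {3, 3} 92) {l : List (ℕ × ℕ)} (hl : l = p1 ∨ l = p2) :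
    vl 8 l = true ∧ ψ (P n l) ^ 3 = 1 ∧ ev (LK (Kb F) (ψ (P n l))) 1 = 92 := by
  have h : vl 8 l = true ∧ (P n l : Perm (Fin n)).cycleType = {3, 3} := by
    rcases hl with rfl | rfl <;> exact ⟨by decide, by rw [ct_P hn (by decide)]; decide +kernel⟩
  exact ⟨h.1, by rw [← map_pow, pow_three (Or.inr h.2), map_one], d _ h.2⟩

theorem act_cjB (hn : 8 ≤ n) (d : Dm ψ {3, 3} 92) {c l l' : List (ℕ × ℕ)} (hc : vl 8 c = true) (hl : l = p1 ∨ l = p2)
    (hl' : l' = p1 ∨ l' = p2) (h : cjB c l l' = true) : act (ψ (P n c)) (hx (ψ (P n l))) = hx (ψ (P n l')) := by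
  obtain ⟨v1, a1, a2⟩ := t33 hn d hl
  obtain ⟨v2, b1, b2⟩ := t33 hn d hl'
  rw [← hx_conj a1 a2, ← map_inv, ← map_mul, ← map_mul]
  rcases Bool.or_eq_true_iff.1 h with h | h
  · rw [P_conj' hn (c := l') (by rw [hc, v1, v2, h]; rfl)]
  · have h1 : P n l' * (P n c * P n l) = P n c := by
      rw [← P_append hn hc v1]
      exact TwoH.P_mul hn (by rw [hc, v2, vl_append hc v1, h]; rfl)
    rw [← hx_inv b1 b2, ← map_inv, eq_inv_mul_iff_mul_eq.2 h1, mul_inv_cancel_right]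

theorem fw_spec (hn : 8 ≤ n) (d : Dm ψ {3, 3} 92) {c : List (ℕ × ℕ)} (h : fw c = true) : act (ψ (P n c)) (wz ψ) = wz ψ := by
  simp only [fw, Bool.and_eq_true, Bool.or_eq_true] at h
  rw [wz, act_add]
  rcases h with ⟨hc, h | h⟩
  · rw [act_cjB hn d hc (Or.inl rfl) (Or.inl rfl) h.1, act_cjB hn d hc (Or.inr rfl) (Or.inr rfl) h.2]
  · rw [act_cjB hn d hc (Or.inl rfl) (Or.inr rfl) h.1, act_cjB hn d hc (Or.inr rfl) (Or.inl rfl) h.2, add_comm]

omit [Finite F] in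
theorem fix_X (hn : 8 ≤ n) (a : Alt n) (ha : ∀ i : Fin n, i.val < 4 → ((a : Perm (Fin n)) i).val < 4) :
    act (ψ a) (Xv ψ) = Xv ψ := by
  have := charKb (F := F)
  have h1 : ∀ p < 3, act (ψ a) (yv (ψ (P n (kk p)))) = yv (ψ (P n (ml (sf (a : Perm (Fin n))) (kk p)))) := fun p hp => by
    rw [← conj_P, map_mul, map_mul, map_inv, yv_conj]
    rw [← map_mul, TwoH.P_mul hn (c := []) (by revert p; decide), P_nil, map_one]
  have h2 : ∀ i < 4, sf (a : Perm (Fin n)) i < 4 := fun i hi => ha _ (by rwa [val_ofNat' (by omega)])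
  have h3 : ∀ a < 4, ∀ b < 4, ∀ c < 4, ∀ d < 4, [a, b, c, d].Nodup → okq a b c d = true ∧ okq b c a d = true ∧
      okq c a b d = true ∧ [ap [(a, b), (c, d)] 3, ap [(b, c), (a, d)] 3, ap [(c, a), (b, d)] 3].Perm [2, 0, 1] := by
    intro a ha b hb
    interval_cases a <;> interval_cases b <;> decide +kernel
  have nd : [sf (a : Perm (Fin n)) 0, sf a.1 1, sf a.1 2, sf a.1 3].Nodup := ((ok_of hn (by decide) : Ok n [0, 1, 2, 3]).map a.1).1
  have k0 := h2 0 (by omega)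
  have k1 := h2 1 (by omega)
  have k2 := h2 2 (by omega)
  have k3 := h2 3 (by omega)
  rw [Xv, act_add, act_add, h1 2 (by omega), h1 0 (by omega), h1 1 (by omega)]
  show yv (ψ (P n [(sf a.1 0, sf a.1 1), (sf a.1 2, sf a.1 3)])) + yv (ψ (P n [(sf a.1 1, sf a.1 2), (sf a.1 0, sf a.1 3)])) +
    yv (ψ (P n [(sf a.1 2, sf a.1 0), (sf a.1 1, sf a.1 3)])) = _
  generalize sf a.1 0 = b0, sf a.1 1 = b1, sf a.1 2 = b2, sf a.1 3 = b3 at nd k0 k1 k2 k3
  obtain ⟨j1, j2, j3, j4⟩ := h3 _ k0 _ k1 _ k2 _ k3 nd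
  rw [P_eq (by omega) j1, P_eq (by omega) j2, P_eq (by omega) j3]
  simpa only [List.map_cons, List.sum_cons, List.map_nil, List.sum_nil, add_zero, add_assoc] using
    (j4.map fun p => yv (ψ (P n (kk p)))).sum_eq

omit [Finite F] in
theorem sq_spec (hn : 8 ≤ n) {c : List (ℕ × ℕ)} (h : sq c = true) : act (ψ (P n c)) (Xv ψ) = Xv ψ := by
  simp only [sq, Bool.and_eq_true, List.all_eq_true, List.mem_range, Nat.blt_eq] at h
  exact fix_X hn _ fun i hi => by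
    rw [coe_P hn h.1, pm_apply ((vl_iff.1 h.1).2.mono hn)]
    exact h.2 i hi

omit [Finite F] in
theorem br_tr (hn : 8 ≤ n) {s c : List (ℕ × ℕ)} (b b' : List (ℕ × ℕ)) (h : br (Xv ψ) (act (ψ (P n s)) (Xv ψ)) = 0)
    (hb : sq b = true) (hb' : sq b' = true) (e : Mk.eqP 8 b s c b' = true) : br (Xv ψ) (act (ψ (P n c)) (Xv ψ)) = 0 := by
  have h1 := congrArg (act (ψ (P n b))) h
  rwa [act_br, act_zero, ← act_mul, ← map_mul, Mk.P_eqP hn e, map_mul, act_mul, sq_spec hn hb, sq_spec hn hb'] at h1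

omit [Finite F] in
theorem fix_tr (hn : 8 ≤ n) {g c : List (ℕ × ℕ)} (b : List (ℕ × ℕ)) (hb : sq b = true) (e : Mk.eqP 8 g c c b = true) :
    act (ψ (P n g)) (act (ψ (P n c)) (Xv ψ)) = act (ψ (P n c)) (Xv ψ) := by
  rw [← act_mul, ← map_mul, Mk.P_eqP hn e, map_mul, act_mul, sq_spec hn hb]

theorem sum20 (hn : 8 ≤ n) (d : Dm ψ {3, 3} 92) : (l20.map fun a => act (ψ (P n a)) (wz ψ)).sum = 0 := by
  have := charKb (F := F)
  have h1 : ∀ a ∈ l20, fw ((rep (co a)).reverse ++ a) = true ∧ (vl 8 (rep (co a)) && vl 8 ((rep (co a)).reverse ++ a) &&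
      vl 8 a && cd 8 (rep (co a) ++ ((rep (co a)).reverse ++ a)) == cd 8 a) = true := by decide +kernel
  rw [← sum_xs two_L (fun m => act (ψ (P n (rep m))) (wz ψ)) (l := l20.map co) (by decide +kernel), List.map_map]
  refine congrArg _ (List.map_congr_left fun a ha => ?_)
  rw [← TwoH.P_mul hn (h1 a ha).2, map_mul, act_mul, fw_spec hn d (h1 a ha).1]
  rfl

theorem all_fix (hn : 8 ≤ n) (d : Dm ψ {3, 3} 92) (h : act (ψ (P n (kk 2))) (wz ψ) = wz ψ) (a : Alt n) :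
    act (ψ a) (wz ψ) = wz ψ := by
  refine gen_top hn ((stab (wz ψ)).comap ψ) [0, 1, 2, 5, 6, 7] 3 4 (by decide) (fun b hb => ?_) (fun k hk => ?_) a
  · show act (ψ b) _ = _
    have h1 : ∀ l, l = p1 ∨ l = p2 → act (ψ b) (hx (ψ (P n l))) = hx (ψ (P n l)) := fun l hl => by
      obtain ⟨-, a1, a2⟩ := t33 hn d hl
      rw [← hx_conj a1 a2, ((comm_of_fix hn (by rcases hl with rfl | rfl <;> decide) hb).map ψ).eq, mul_inv_cancel_right]
    rw [wz, act_add, h1 _ (Or.inl rfl), h1 _ (Or.inr rfl)]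
  · have h1 : ∀ k ∈ [0, 1, 2, 5, 6, 7], fw (cK k) = true ∧ (vl 8 (cK k) && vl 8 [(3, 4), (3, 2)] && vl 8 [(3, 4), (3, k)] &&
        cd 8 (cK k ++ [(3, 4), (3, 2)]) == cd 8 ([(3, 4), (3, k)] ++ cK k)) = true := by decide +kernel
    have h2 : P n (cK k) ∈ (stab (wz ψ)).comap ψ := fw_spec hn d (h1 k hk).1
    rw [← P_conj' hn (h1 k hk).2, ← TwoH.P_mul hn (a := [(0, 1), (3, 4)]) (b := kk 2) (c := [(3, 4), (3, 2)]) (by decide)]
    exact mul_mem (mul_mem h2 (mul_mem (fw_spec hn d (by decide)) h)) (inv_mem h2)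

end Tb

open Cfsg Cfsg.Lie Module Equiv
open Cfsg.Agent.R2.T1.Odd Cfsg.Agent.R2.T1.Msk
open Cfsg.Agent.E8A.Two Cfsg.Agent.E8A.TwoH Tb

universe u

/-- **TBa from A4X and NILF** -/
theorem tb_of (hA : A4X.{u}) (hN : NILF.{u}) : TBa.{u} := by
  intro F _ _ _ H n φ hM hn hf d3 d33
  have := charKb (F := F)
  have : NeZero n := ⟨by omega⟩
  have hD : ∀ c d, Dm φ c d → Dm ((emb0 (F := F)).comp φ) c d := fun c d hd a ha => (ev_emb0 _).trans (hd a ha)
  replace d3 := hD _ _ d3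
  replace d33 := hD _ _ d33
  have nf : NoFx ((emb0 (F := F)).comp φ) := Inf.NoFx.em _ hf
  set ψ := (emb0 (F := F)).comp φ with hψ
  have c1 := ct3 hn (ok_of hn (by decide) : Ok n [5, 6, 7])
  have c2 := ct3 hn (ok_of hn (by decide) : Ok n [0, 1, 2])
  have cj : ∀ a b c, (vl 8 a && vl 8 b && vl 8 c && cd 8 (a ++ b) == cd 8 (c ++ a)) = true →
      ψ (P n a) * ψ (P n b) * (ψ (P n a))⁻¹ = ψ (P n c) := fun a b c h => by
    rw [← map_inv, ← map_mul, ← map_mul, P_conj' hn h]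
  have iy : (ψ (P n [(0, 1), (1, 2)]))⁻¹ = ψ (P n [(1, 2), (0, 1)]) := by
    rw [← map_inv, TwoH.P_inv hn (c := [(1, 2), (0, 1)]) (by decide)]
  have ix : (ψ (P n [(5, 6), (6, 7)]))⁻¹ = ψ (P n [(6, 7), (5, 6)]) := by
    rw [← map_inv, TwoH.P_inv hn (c := [(6, 7), (5, 6)]) (by decide)]
  have e1 : ψ (P n [(5, 6), (6, 7)]) * ψ (P n [(0, 1), (1, 2)]) = ψ (P n p1) := by
    rw [← map_mul, TwoH.P_mul hn (c := p1) (by decide)]
  have e2 : ψ (P n [(5, 6), (6, 7)]) * (ψ (P n [(0, 1), (1, 2)]))⁻¹ = ψ (P n p2) := by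
    rw [iy, ← map_mul, TwoH.P_mul hn (c := p2) (by decide)]
  have e3 : ψ (P n [(0, 1), (1, 2)]) * ψ (P n (kk 2)) * (ψ (P n [(0, 1), (1, 2)]))⁻¹ = ψ (P n (kk 0)) := cj _ _ _ (by decide)
  have e4 : (ψ (P n [(0, 1), (1, 2)]))⁻¹ * ψ (P n (kk 2)) * ψ (P n [(0, 1), (1, 2)]) = ψ (P n (kk 1)) := by
    rw [iy, ← map_mul, ← map_mul, TwoH.P_mul hn (c := [(1, 2), (0, 1), (0, 1), (2, 3)]) (by decide),
      TwoH.P_mul hn (c := kk 1) (by decide)]
  obtain ⟨h1, h2, h3, h4⟩ := hA F (ψ (P n [(5, 6), (6, 7)])) (ψ (P n [(0, 1), (1, 2)])) (ψ (P n (kk 2))) (wz ψ) (Xv ψ)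
    (by rw [← map_pow, pow_three (Or.inl c1), map_one]) (by rw [← map_pow, pow_three (Or.inl c2), map_one])
    ((P_comm hn (by decide)).map ψ) ((P_comm hn (by decide)).map ψ)
    (by rw [← map_mul, TwoH.P_mul hn (c := []) (by decide), P_nil, map_one])
    (by rw [e3, e4, ← map_mul, TwoH.P_mul hn (c := kk 1) (by decide)]) (d3 _ c1) (d3 _ c2)
    (by rw [e1]; exact (t33 hn d33 (Or.inl rfl)).2.2) (by rw [e2]; exact (t33 hn d33 (Or.inr rfl)).2.2)
    (by rw [e1, e2, wz]) (by rw [e3, e4, Xv])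
  rw [e3] at h2 h3
  rw [e4] at h2
  rcases h4 with ⟨h4, h5, h6⟩ | h4
  · refine hN F H n φ hM hn hf (Xv ψ) h4 (fix_X (ψ := ψ) hn) ?_ ?_ ?_ ?_
    · exact br_tr (ψ := ψ) hn [] [(0, 1), (4, 5)] (h5 (ψ (P n [(0, 1), (3, 4)])) ((P_comm hn (by decide)).map ψ)
        (by rw [iy]; exact cj _ _ _ (by decide))) (by decide) (by decide) (by decide)
    · exact br_tr (ψ := ψ) hn [(4, 7), (5, 6)] [(0, 2), (2, 1), (4, 6), (6, 5)] (h6 (ψ (P n [(0, 5), (1, 7), (7, 2), (2, 6)]))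
        (cj _ _ _ (by decide)) (by rw [ix]; exact cj _ _ _ (by decide))) (by decide) (by decide) (by decide)
    · exact h3 _ (fix_tr (ψ := ψ) hn [(1, 2), (2, 3)] (by decide) (by decide))
        (fix_tr (ψ := ψ) hn [(4, 5), (6, 7)] (by decide) (by decide))
        (fix_tr (ψ := ψ) hn [(5, 6), (4, 7)] (by decide) (by decide))
    · have h7 : ∀ i < 5, act (ψ (P n Mk.c5 ^ i)) (Xv ψ) = act (ψ (P n (pwl Mk.c5 i))) (wz ψ) +
          act (ψ (P n (pwl Mk.c5 i ++ kk 2))) (wz ψ) + act (ψ (P n (pwl Mk.c5 i ++ kk 0))) (wz ψ) +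
          act (ψ (P n (pwl Mk.c5 i ++ kk 1))) (wz ψ) := fun i hi => by
        have h8 : vl 8 (pwl Mk.c5 i) = true := by revert i; decide
        rw [h2, ← P_pwl hn (by decide), P_append hn h8 (by decide), P_append hn h8 (by decide), P_append hn h8 (by decide),
          map_mul, map_mul, map_mul, act_mul, act_mul, act_mul, act_add, act_add, act_add]
      rw [← sum20 hn d33]
      show ∑ i ∈ Finset.range 5, act (ψ (P n Mk.c5 ^ i)) (Xv ψ) = _
      rw [Finset.sum_congr rfl fun i hi => h7 i (Finset.mem_range.1 hi)]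
      simp only [Finset.sum_range_succ, Finset.sum_range_zero, l20, List.range_succ, List.range_zero, List.nil_append,
        List.flatMap_cons, List.flatMap_nil, List.cons_append, List.append_nil, List.map_cons,
        List.sum_cons, List.map_nil, List.sum_nil, add_zero, zero_add, add_assoc]
  · exact h1 (nf _ (all_fix hn d33 (h4 (ψ (P n [(0, 1), (5, 6)])) (by rw [ix]; exact cj _ _ _ (by decide))
      (by rw [iy]; exact cj _ _ _ (by decide)) ((P_comm hn (by decide)).map ψ))))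

end Cfsg.Agent.E8A.TwoB
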